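/-
For `p` odd, `Z(F)` is a direct factor of `Z(S)`.
-/
import Mathlib
import Cfsg.Agent.Lib.Fusion.GT.WeakCenter
import Cfsg.Agent.Lib.Fusion.Saturated2

set_option autoImplicit false
set_option linter.style.haveILetI false

namespace Cfsg.Agent.Lib.Fusion.GT.CenterFactor

open Cfsg Cfsg.FusionSystem Cfsg.Agent.Lib.Fusion.Basic Cfsg.Agent.Lib.Fusion.Saturated
  Cfsg.Agent.Lib.Fusion.ModelLocal Cfsg.Agent.Lib.Fusion.LocalSystems Cfsg.Agent.Lib.Fusion.Normal
  Cfsg.Agent.Lib.PGroup.ZJ Cfsg.Agent.Lib.Fusion.GT.WeakChain Cfsg.Agent.Lib.Fusion.Joins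
  Cfsg.Agent.Lib.Fusion.GT.WeakCenter Cfsg.Agent.Lib.Fusion.Saturated2

universe u

/-- The norm argument. -/
theorem exists_direct_factor {A : Type*} [CommGroup A] [Finite A] {p : ℕ} [Fact p.Prime] (hA : IsPGroup p A)
    {G : Type*} [Group G] [Finite G] (act : G → A →* A) (act_mul : ∀ g h a, act (g * h) a = act g (act h a))
    (H : Subgroup G) (hn : ¬ p ∣ H.index) (A₁ A₀ : Subgroup A)
    (hA₁ : ∀ a, a ∈ A₁ ↔ ∀ h ∈ H, act h a = a) (hA₀ : ∀ a, a ∈ A₀ ↔ ∀ g, act g a = a) :
    ∃ K : Subgroup A, K ≤ A₁ ∧ A₀ ⊓ K = ⊥ ∧ A₀ ⊔ K = A₁ := by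
  classical
  haveI : Fintype (G ⧸ H) := Fintype.ofFinite _
  let Nf : A →* A := MonoidHom.mk' (fun a => ∏ c : G ⧸ H, act c.out a) (fun a b => by
    simp only [map_mul, Finset.prod_mul_distrib])
  have hNf : ∀ a, Nf a = ∏ c : G ⧸ H, act c.out a := fun _ => rfl
  have hA₀₁ : A₀ ≤ A₁ := fun a ha => (hA₁ a).2 fun h _ => (hA₀ a).1 ha h
  have hfix : ∀ a ∈ A₁, Nf a ∈ A₀ := by
    intro a ha
    rw [hA₀]
    intro g
    rw [hNf, map_prod]
    rw [← Equiv.prod_comp (MulAction.toPerm (α := G) (β := G ⧸ H) g) (fun c => act c.out a)]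
    refine Finset.prod_congr rfl fun c _ => ?_
    obtain ⟨h, hh⟩ := QuotientGroup.mk_out_eq_mul H (g * c.out)
    have e : (MulAction.toPerm (α := G) (β := G ⧸ H) g) c = ((g * c.out : G) : G ⧸ H) := by
      conv_lhs => rw [← QuotientGroup.out_eq' c]
      rfl
    rw [e, hh, act_mul, (hA₁ a).1 ha h h.2, act_mul]
  have hcard : Fintype.card (G ⧸ H) = H.index := by
    rw [← Nat.card_eq_fintype_card]
    rfl
  have hpow : ∀ a ∈ A₀, Nf a = a ^ H.index := by
    intro a ha
    rw [hNf, ← hcard, ← Finset.card_univ, ← Finset.prod_const]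
    exact Finset.prod_congr rfl fun c _ => (hA₀ a).1 ha _
  have hco : (Nat.card A₀).Coprime H.index := by
    obtain ⟨k, hk⟩ := IsPGroup.iff_card.1 (hA.to_subgroup A₀)
    rw [hk]
    exact ((Nat.Prime.coprime_iff_not_dvd Fact.out).2 hn).pow_left k
  refine ⟨A₁ ⊓ Nf.ker, inf_le_left, ?_, ?_⟩
  · rw [eq_bot_iff]
    rintro a ⟨ha, -, hk⟩
    have h1 : Nf a = 1 := hk
    rw [hpow a ha] at h1
    have hinj := (powCoprime hco).injective
    have h2 : (powCoprime hco) ⟨a, ha⟩ = (powCoprime hco) 1 := by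
      apply Subtype.ext
      simp [powCoprime, h1]
    have h3 := hinj h2
    exact Subgroup.mem_bot.2 (congrArg Subtype.val h3)
  · apply le_antisymm
    · exact sup_le hA₀₁ inf_le_left
    · intro a ha
      have hb := hfix a ha
      let y : A₀ := (powCoprime hco).symm ⟨Nf a, hb⟩
      have hy : (y : A) ^ H.index = Nf a := by
        have h1 := (powCoprime hco).apply_symm_apply ⟨Nf a, hb⟩
        exact congrArg Subtype.val h1
      have hNy : Nf (y : A) = Nf a := by
        rw [hpow _ y.2, hy]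
      have hk : a * (y : A)⁻¹ ∈ A₁ ⊓ Nf.ker := by
        refine ⟨A₁.mul_mem ha (A₁.inv_mem (hA₀₁ y.2)), ?_⟩
        show Nf (a * (y : A)⁻¹) = 1
        rw [map_mul, map_inv, hNy, mul_inv_cancel]
      have e : a = (y : A) * (a * (y : A)⁻¹) := by
        rw [mul_comm a, ← mul_assoc, mul_inv_cancel, one_mul]
      rw [e]
      exact Subgroup.mul_mem _ ((le_sup_left : A₀ ≤ A₀ ⊔ _) y.2) ((le_sup_right : _ ≤ A₀ ⊔ _) hk)

/-- Automorphisms act on the centre. -/
def centerAct {X : Type*} [Group X] (γ : MulAut X) : Subgroup.center X →* Subgroup.center X :=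
  MonoidHom.mk' (fun z => ⟨γ z, by
    rw [Subgroup.mem_center_iff]
    intro g
    have h := Subgroup.mem_center_iff.1 z.2 (γ⁻¹ g)
    have h2 := congrArg γ h
    rw [map_mul, map_mul] at h2
    have e : γ (γ⁻¹ g) = g := by simp
    rwa [e] at h2⟩) (fun a b => by
      apply Subtype.ext
      simp)

variable {Ω : Type u} [Group Ω] {S : Subgroup Ω} {F : FusionSystem S} {p : ℕ} [Fact p.Prime]

/-- **`Z(F)` is a direct factor of `Z(S)`** for `p` odd. -/
theorem main [Finite S] (hp : p ≠ 2) (hS : IsPGroup p S) (hF : F.IsSaturated p) :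
    ∃ K : Subgroup Ω, K ≤ (S ⊓ Subgroup.centralizer (S : Set Ω)) ∧ F.center ⊓ K = ⊥ ∧
      F.center ⊔ K = (S ⊓ Subgroup.centralizer (S : Set Ω)) := by
  classical
  set J := JJ 0 S with hJ
  have hJS : J ≤ S := JJ_le 0 S
  have hSN : S ≤ Subgroup.normalizer (J : Set Ω) := inf_eq_left.1 (normalizerIn_JJ S)
  have hFN : F.IsFullyNormalized J :=
    Cfsg.Agent.Lib.Fusion.ModelF.isFullyNormalized_of_le_normalizer hJS hSN
  haveI : Finite J := finite_of_le hJS
  obtain ⟨-, R, hR⟩ := (fullyNormalized_props hS hF hFN).2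
  have hn : ¬ p ∣ ((autInducedBy S J).subgroupOf (F.autGroup J)).index := by
    rw [← hR]
    exact R.not_dvd_index
  let H := (autInducedBy S J).subgroupOf (F.autGroup J)
  let A := Subgroup.center J
  letI instA : CommGroup A :=
    { (inferInstance : Group A) with
      mul_comm := fun a b => Subtype.ext (Subgroup.mem_center_iff.1 b.2 a) }
  have hA : IsPGroup p A := (hS.to_le hJS).to_subgroup _
  let act : ↥(F.autGroup J) → A →* A := fun γ => centerAct (γ : MulAut J)
  have act_mul : ∀ g h a, act (g * h) a = act g (act h a) := fun g h a => rfl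
  let ι : A →* Ω := J.subtype.comp (Subgroup.center J).subtype
  have hι : ∀ a : A, ι a = ((a : J) : Ω) := fun _ => rfl
  have hinj : Function.Injective ι := J.subtype_injective.comp (Subgroup.center J).subtype_injective
  have hact : ∀ (g : F.autGroup J) (a : A), ι (act g a) = (((g : MulAut J) (a : J) : J) : Ω) := fun _ _ => rfl
  -- `Z(S)` inside `A`
  have hZle : centralizerIn S S ≤ ι.range := by
    intro z hz
    have hzJ : z ∈ J := mem_JJ_of_mem_center hz.1 fun u hu =>
      (Subgroup.mem_centralizer_iff.1 hz.2 u hu).symm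
    refine ⟨⟨⟨z, hzJ⟩, ?_⟩, rfl⟩
    rw [Subgroup.mem_center_iff]
    intro g
    apply Subtype.ext
    exact Subgroup.mem_centralizer_iff.1 hz.2 g (hJS g.2)
  have hcen := isCentral_center F
  have hcZ : F.center ≤ centralizerIn S S := by
    have h1 := le_centralizerIn_of_singletons hcen.1 (fun x hx y hy => conjElt_eq_of_isCentral hcen hx hy)
      (P := S) le_rfl
    exact h1
  let A₁ : Subgroup A := (centralizerIn S S).comap ι
  let A₀ : Subgroup A := F.center.comap ι
  have hA₁ : ∀ a, a ∈ A₁ ↔ ∀ h ∈ H, act h a = a := by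
    intro a
    constructor
    · intro ha h hh
      apply hinj
      rw [hact]
      obtain ⟨s, hs, hse⟩ := mem_autInducedBy_iff.1 (show ((h : F.autGroup J) : MulAut J) ∈ autInducedBy S J from hh)
      rw [hse]
      have h1 := Subgroup.mem_centralizer_iff.1 (show ι a ∈ Subgroup.centralizer (S : Set Ω) from ha.2) s hs
      show s * ι a * s⁻¹ = ι a
      rw [h1]
      group
    · intro h
      refine ⟨hJS (a : J).2, ?_⟩
      show ι a ∈ Subgroup.centralizer (S : Set Ω)
      rw [Subgroup.mem_centralizer_iff]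
      intro s hs
      have hm : normConj s (hSN hs) ∈ F.autGroup J := autInducedBy_le_autGroup hJS (normConj_mem_autInducedBy hs (hSN hs))
      have h2 := h ⟨normConj s (hSN hs), hm⟩ (normConj_mem_autInducedBy hs (hSN hs))
      have h3 := congrArg ι h2
      rw [hact] at h3
      have h4 : s * ι a * s⁻¹ = ι a := h3
      calc s * ι a = (s * ι a * s⁻¹) * s := by group
        _ = ι a * s := by rw [h4]
  -- the fixed points
  let Fx : Subgroup A :=
    { carrier := {a | ∀ g, act g a = a}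
      mul_mem' := fun {a b} ha hb g => by rw [map_mul, ha g, hb g]
      one_mem' := fun g => map_one _
      inv_mem' := fun {a} ha g => by rw [map_inv, ha g] }
  have hFx₁ : ∀ a ∈ Fx, a ∈ A₁ := fun a ha => (hA₁ a).2 fun h _ => ha h
  have hY : F.IsCentral (Fx.map ι) := by
    refine isCentral_of_singletons hF ?_ ?_
    · rintro _ ⟨a, ha, rfl⟩
      exact (hFx₁ a ha).1
    · rintro _ ⟨a, ha, rfl⟩ y ⟨φ, hφ, rfl⟩
      refine fix_of_good hS hF (hFx₁ a ha) (Or.inl hp) (fun β hβ hr hx => ?_) hφ _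
      have hβv : ∀ x : J, β x ∈ J := fun x => hr.le ⟨x, rfl⟩
      have hα := autOfHom_mem hβ hβv
      have h1 := ha ⟨_, hα⟩
      have h2 := congrArg ι h1
      rw [hact] at h2
      exact h2
  have hA₀ : ∀ a, a ∈ A₀ ↔ ∀ g, act g a = a := by
    intro a
    constructor
    · intro ha g
      apply hinj
      rw [hact]
      have hφ : J.subtype.comp (g : MulAut J).toMonoidHom ∈ F.Hom J := autGroup_mem_hom hJS g.2
      obtain ⟨ψ, -, hag, hfix⟩ := hcen.2 J _ hφ
      have e1 := hag (a : J)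
      have e2 := hfix ⟨ι a, ha⟩
      have e3 : Subgroup.inclusion (le_sup_left : J ≤ J ⊔ F.center) (a : J) =
          Subgroup.inclusion (le_sup_right : F.center ≤ J ⊔ F.center) ⟨ι a, ha⟩ := Subtype.ext rfl
      rw [e3, e2] at e1
      exact e1.symm
    · intro ha
      have h1 : ι a ∈ Fx.map ι := ⟨a, ha, rfl⟩
      exact (le_sSup hY : Fx.map ι ≤ F.center) h1
  obtain ⟨K, hK1, hK2, hK3⟩ := @exists_direct_factor A instA _ p _ hA (↥(F.autGroup J)) _ _
    act act_mul H hn A₁ A₀ hA₁ hA₀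
  have e₁ : A₁.map ι = centralizerIn S S := Subgroup.map_comap_eq_self hZle
  have e₀ : A₀.map ι = F.center := Subgroup.map_comap_eq_self (hcZ.trans hZle)
  refine ⟨K.map ι, ?_, ?_, ?_⟩
  · exact (Subgroup.map_mono hK1).trans e₁.le
  · rw [← e₀, ← Subgroup.map_inf _ _ _ hinj, hK2, Subgroup.map_bot]
  · rw [← e₀, ← Subgroup.map_sup, hK3, e₁]
    rfl

end Cfsg.Agent.Lib.Fusion.GT.CenterFactor
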