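/-
An axiomatic form of Glauberman's ZJ-theorem: a family of abelian subgroups with invariance and
replacement has a normal intersection in a `p`-stable group with `C(O_p) ≤ O_p`.
-/
import Mathlib
import Cfsg.Agent.Lib.PGroup.GTOdd
import Cfsg.Agent.Lib.PGroup.ZJControl
import Cfsg.Agent.Lib.Transfer.FunctorComplement

set_option autoImplicit false

namespace Cfsg.Agent.Lib.Fusion.GT.Family

open Subgroup Cfsg Cfsg.Agent.Lib.PGroup.ZJ
open scoped commutatorElement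

universe u

variable {G : Type*} [Group G]

/-- The intersection of the members of the family inside `Q`. -/
def II (𝒜 : Set (Subgroup G)) (Q : Subgroup G) : Subgroup G := ⨅ A ∈ {A : Subgroup G | A ∈ 𝒜 ∧ A ≤ Q}, A

theorem mem_II {𝒜 : Set (Subgroup G)} {Q : Subgroup G} {x : G} :
    x ∈ II 𝒜 Q ↔ ∀ A ∈ 𝒜, A ≤ Q → x ∈ A := by
  simp only [II, Subgroup.mem_iInf, Set.mem_ofPred_eq, and_imp]

variable {p : ℕ} [Fact p.Prime]

/-- The main step. -/
theorem family_step [Finite G] (S : Sylow p G)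
    (hc : centralizer (Cfsg.pCore p G : Set G) ≤ Cfsg.pCore p G)
    (hst : ∀ (P : Subgroup G) [P.Normal], IsPGroup p P → ∀ a ∈ (S : Subgroup G),
      ⁅⁅P, zpowers a⁆, zpowers a⁆ = ⊥ → a ∈ TT p P)
    {𝒜 : Set (Subgroup G)} (hAS : ∀ A ∈ 𝒜, A ≤ S) (hAc : ∀ A ∈ 𝒜, ∀ x ∈ A, ∀ y ∈ A, x * y = y * x)
    (hne : 𝒜.Nonempty)
    (hinv : ∀ Q : Subgroup G, Q ≤ S → (∃ A ∈ 𝒜, A ≤ Q) → ∀ n ∈ normalizer (Q : Set G), ∀ x ∈ II 𝒜 Q,
      n * x * n⁻¹ ∈ II 𝒜 Q)
    (hrep : ∀ B : Subgroup G, B ≤ S → ⁅⁅B, B⁆, B⁆ = ⊥ → (∃ A ∈ 𝒜, ⁅B, B⁆ ≤ A ∧ ¬ B ≤ A) →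
      ∃ A ∈ 𝒜, ⁅B, B⁆ ≤ A ∧ ¬ B ≤ A ∧ B ≤ normalizer (A : Set G))
    {V : Subgroup G} [hVn : V.Normal] (hVZ : V ≤ II 𝒜 S) (hnle : ¬ II 𝒜 S ≤ V) :
    ∃ D : Subgroup G, D.Normal ∧ D ≤ II 𝒜 S ∧ ¬ D ≤ V := by
  set Z := II 𝒜 S with hZdef
  obtain ⟨A₀, hA₀⟩ := hne
  have hZA : ∀ A ∈ 𝒜, Z ≤ A := fun A hA x hx => mem_II.1 hx A hA (hAS A hA)
  have hSp : IsPGroup p (S : Subgroup G) := S.isPGroup'
  have hZS : Z ≤ S := (hZA A₀ hA₀).trans (hAS A₀ hA₀)
  have hZcomm : ∀ x ∈ Z, ∀ y ∈ Z, x * y = y * x := fun x hx y hy =>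
    hAc A₀ hA₀ x (hZA A₀ hA₀ hx) y (hZA A₀ hA₀ hy)
  have hZn : ∀ s ∈ (S : Subgroup G), ∀ w ∈ Z, s * w * s⁻¹ ∈ Z := fun s hs w hw =>
    hinv S le_rfl ⟨A₀, hA₀, hAS A₀ hA₀⟩ s (Subgroup.le_normalizer hs) w hw
  obtain ⟨z, hzZ, hzV, hzS⟩ := exists_central_mod hSp (fun s _ v hv => hVn.conj_mem v hv s)
    hZn hZS hnle
  set Q := Cfsg.pCore p G with hQdef
  have hQS : Q ≤ S := Cfsg.Agent.Lib.Basic.PCore.pCore_le_sylow S
  have hQp : IsPGroup p Q := Cfsg.Agent.Lib.Basic.PCore.pCore_isPGroup p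
  have hzcV : ∀ v ∈ V, z * v = v * z := fun v hv => hZcomm z hzZ v (hVZ hv)
  have hquadQ : ⁅⁅Q, zpowers z⁆, zpowers z⁆ = ⊥ := by
    refine quad_of_commutator_le (K := V) (fun q hq => ?_) hzcV
    have := inv_mem (hzS q (hQS hq))
    rwa [commutatorElement_inv] at this
  have hzQ : z ∈ Q := TT_pCore_le hc (hst Q hQp z (hZS hzZ) hquadQ)
  set NC := normalClosure ({z} : Set G) with hNC
  set D := V ⊔ NC with hDdef
  have hNCQ : NC ≤ Q := Subgroup.normalClosure_le_normal (Set.singleton_subset_iff.mpr hzQ)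
  have hVQ : V ≤ Q := Cfsg.Agent.Lib.Basic.PCore.le_pCore hVn (hSp.to_le (hVZ.trans hZS))
  have hDQ : D ≤ Q := sup_le hVQ hNCQ
  have hzD : z ∈ D := (le_sup_right : NC ≤ D) (Subgroup.subset_normalClosure rfl)
  have hzcomm : z ∈ commMod Q V := fun q hq => hzS q (hQS hq)
  have hDM : D ≤ commMod Q V :=
    sup_le le_commMod (Subgroup.normalClosure_le_normal (Set.singleton_subset_iff.mpr hzcomm))
  have hcomm : ⁅D, D⁆ ≤ V := by
    rw [Subgroup.commutator_le]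
    intro x hx y hy
    exact hDM hx y (hDQ hy)
  have hDn : D.Normal := inferInstance
  -- `D` centralizes `V`
  have hDCV : D ≤ centralizer (V : Set G) := by
    have hCn : (centralizer (V : Set G)).Normal := Subgroup.normal_centralizer (H := V)
    refine sup_le ?_ (Subgroup.normalClosure_le_normal (Set.singleton_subset_iff.mpr ?_))
    · intro v hv
      exact Subgroup.mem_centralizer_iff.2 fun u hu => hZcomm u (hVZ hu) v (hVZ hv)
    · exact Subgroup.mem_centralizer_iff.2 fun u hu => (hzcV u hu).symm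
  have hclass : ⁅⁅D, D⁆, D⁆ = ⊥ := by
    rw [eq_bot_iff, Subgroup.commutator_le]
    intro x hx y hy
    rw [Subgroup.mem_bot, commutatorElement_eq_one_iff_mul_comm]
    exact Subgroup.mem_centralizer_iff.1 (hDCV hy) x (hcomm hx)
  have hall : ∀ U ∈ 𝒜, D ≤ U := by
    intro U hU
    by_contra hUD
    have hDSS : D ≤ S := hDQ.trans hQS
    obtain ⟨A, hA, -, hAD, hDN⟩ := hrep D hDSS hclass ⟨U, hU, hcomm.trans (hVZ.trans (hZA U hU)), hUD⟩
    have hAT : A ≤ TT p D := by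
      intro a ha
      refine hst D (hSp.to_le hDSS) a (hAS A hA ha) (quad_of_commutator_le (K := A) ?_ ?_)
      · intro d hd
        rw [commutatorElement_def]
        exact mul_mem ((mem_normalizer_iff.mp (hDN hd) a).mp ha) (inv_mem ha)
      · intro u hu
        exact hAc A hA a ha u hu
    set R := (S : Subgroup G) ⊓ TT p D with hR
    have hAR : A ≤ R := le_inf (hAS A hA) hAT
    have hzR : z ∈ II 𝒜 R := mem_II.2 fun A' hA' hA'R => mem_II.1 hzZ A' hA' (hA'R.trans inf_le_left)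
    have key : ∀ g : G, g * z * g⁻¹ ∈ A := by
      intro g
      obtain ⟨n, hn, c, hc', rfl⟩ := exists_factor S D g
      have hcz : c * z = z * c := (Subgroup.mem_centralizer_iff.mp hc' z hzD).symm
      have he : n * c * z * (n * c)⁻¹ = n * z * n⁻¹ := by
        have : n * c * z * (n * c)⁻¹ = n * (c * z * c⁻¹) * n⁻¹ := by group
        rw [this, hcz]
        group
      rw [he]
      exact mem_II.1 (hinv R inf_le_left ⟨A, hA, hAR⟩ n hn z hzR) A hA hAR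
    apply hAD
    refine sup_le (hVZ.trans (hZA A hA)) ?_
    rw [hNC, Subgroup.normalClosure, Subgroup.closure_le]
    intro y hy
    obtain ⟨b, hb, hby⟩ := Group.mem_conjugatesOfSet_iff.mp hy
    rw [Set.mem_singleton_iff] at hb
    subst hb
    obtain ⟨c, rfl⟩ := isConj_iff.mp hby
    exact key c
  refine ⟨D, hDn, ?_, fun h => hzV (h hzD)⟩
  intro x hx
  exact mem_II.2 fun U hU _ => hall U hU hx

/-- **The axiomatic ZJ theorem**. -/
theorem family_normal [Finite G] (S : Sylow p G)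
    (hc : centralizer (Cfsg.pCore p G : Set G) ≤ Cfsg.pCore p G)
    (hst : ∀ (P : Subgroup G) [P.Normal], IsPGroup p P → ∀ a ∈ (S : Subgroup G),
      ⁅⁅P, zpowers a⁆, zpowers a⁆ = ⊥ → a ∈ TT p P)
    {𝒜 : Set (Subgroup G)} (hAS : ∀ A ∈ 𝒜, A ≤ S) (hAc : ∀ A ∈ 𝒜, ∀ x ∈ A, ∀ y ∈ A, x * y = y * x)
    (hne : 𝒜.Nonempty)
    (hinv : ∀ Q : Subgroup G, Q ≤ S → (∃ A ∈ 𝒜, A ≤ Q) → ∀ n ∈ normalizer (Q : Set G), ∀ x ∈ II 𝒜 Q,
      n * x * n⁻¹ ∈ II 𝒜 Q)
    (hrep : ∀ B : Subgroup G, B ≤ S → ⁅⁅B, B⁆, B⁆ = ⊥ → (∃ A ∈ 𝒜, ⁅B, B⁆ ≤ A ∧ ¬ B ≤ A) →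
      ∃ A ∈ 𝒜, ⁅B, B⁆ ≤ A ∧ ¬ B ≤ A ∧ B ≤ normalizer (A : Set G)) :
    (II 𝒜 S).Normal := by
  set Z := II 𝒜 S with hZ
  obtain ⟨V, hV, hmax⟩ := Set.exists_max_image {V : Subgroup G | V.Normal ∧ V ≤ Z}
    (fun V => Nat.card V) (Set.toFinite _) ⟨⊥, inferInstance, bot_le⟩
  have hVn : V.Normal := hV.1
  by_cases h : Z ≤ V
  · have : Z = V := le_antisymm h hV.2
    rw [this]
    exact hVn
  · exfalso
    obtain ⟨D, hDn, hDZ, hDV⟩ := family_step S hc hst hAS hAc hne hinv hrep hV.2 h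
    have := hDn
    have h1 : V < V ⊔ D := by
      refine lt_of_le_of_ne le_sup_left ?_
      intro he
      apply hDV
      rw [he]
      exact le_sup_right
    have h2 := hmax (V ⊔ D) ⟨inferInstance, sup_le hV.2 hDZ⟩
    have h3 := Cfsg.Agent.Lib.PGroup.Replacement.card_lt_of_lt h1
    omega

open Cfsg.Agent.Lib.Basic.PCore

/-- If every proper overgroup of the Sylow subgroup is a `p`-group, then `X / O_p(X)` has a normal
`p`-complement. -/
theorem hq_of_overgroups (hp2 : p ≠ 2) {X : Type u} [Group X] [Finite X] (P₀ : Sylow p X)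
    (hprop : ∀ H : Subgroup X, (P₀ : Subgroup X) ≤ H → H ≠ ⊤ → IsPGroup p H) :
    HasNormalPComplement p (X ⧸ pCore p X) := by
  classical
  have hOn : (pCore p X).Normal := pCore_normal p X
  let f : X →* X ⧸ pCore p X := QuotientGroup.mk' (pCore p X)
  have hf : Function.Surjective f := QuotientGroup.mk'_surjective _
  let P₂ : Sylow p (X ⧸ pCore p X) := P₀.mapSurjective hf
  have hP₂ : (P₂ : Subgroup (X ⧸ pCore p X)) = (P₀ : Subgroup X).map f := rfl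
  set W := ZZ 0 (P₂ : Subgroup (X ⧸ pCore p X)) with hW
  refine Cfsg.Agent.Lib.PGroup.GTOdd.hnpc_of_normalizer_ZZ hp2 (Or.inl rfl) P₂ _
    (strongly_closed_self _) ?_
  by_cases htop : normalizer (W : Set (X ⧸ pCore p X)) = ⊤
  · -- `W` is normal, hence trivial, hence `X / O_p(X)` is a `p'`-group
    have hWn : W.Normal := Subgroup.normalizer_eq_top_iff.1 htop
    have hWp : IsPGroup p W := P₂.isPGroup'.to_le (ZZ_le_self _ _)
    have hW1 : W = ⊥ := by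
      have := le_pCore hWn hWp
      rw [pCore_quotient_eq_bot] at this
      exact le_bot_iff.1 this
    have hP₂1 : (P₂ : Subgroup (X ⧸ pCore p X)) = ⊥ := by
      by_contra h
      exact Cfsg.Agent.Lib.PGroup.ZJControl.ZZ_ne_bot (Or.inl rfl) P₂.isPGroup' h hW1
    have hcop : (Nat.card (X ⧸ pCore p X)).Coprime p := by
      rw [Nat.coprime_comm, Nat.Prime.coprime_iff_not_dvd Fact.out]
      intro hdvd
      exact Sylow.ne_bot_of_dvd_card P₂ hdvd hP₂1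
    refine Cfsg.Agent.Lib.Transfer.Basic.hasNormalPComplement_iff.mpr ⟨⊤, inferInstance, ?_, ?_⟩
    · rw [Subgroup.card_top]
      exact Nat.Coprime.coprime_dvd_left (Subgroup.card_subgroup_dvd_card _) hcop
    · intro x
      refine ⟨0, ?_⟩
      rw [pow_zero, pow_one]
      obtain ⟨y, rfl⟩ := QuotientGroup.mk_surjective x
      exact (QuotientGroup.eq_one_iff _).2 trivial
  · -- the preimage is a `p`-group
    set L := (normalizer (W : Set (X ⧸ pCore p X))).comap f with hL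
    have hP₀L : (P₀ : Subgroup X) ≤ L := by
      intro x hx
      have h1 : f x ∈ (P₂ : Subgroup (X ⧸ pCore p X)) := ⟨x, hx, rfl⟩
      refine Subgroup.mem_comap.2 (Subgroup.mem_normalizer_iff.2 fun y => ?_)
      constructor
      · exact conj_mem_ZZ (fun u hu => mul_mem (mul_mem h1 hu) (inv_mem h1))
      · intro hy
        have := conj_mem_ZZ (g := (f x)⁻¹) (R := (P₂ : Subgroup (X ⧸ pCore p X))) (k := 0)
          (fun u hu => mul_mem (mul_mem (inv_mem h1) hu) (inv_mem (inv_mem h1))) hy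
        simpa [mul_assoc] using this
    have hLne : L ≠ ⊤ := by
      intro h
      apply htop
      rw [eq_top_iff]
      intro y _
      obtain ⟨g, rfl⟩ := hf y
      have : g ∈ L := by rw [h]; trivial
      exact this
    have hLp := hprop L hP₀L hLne
    refine Cfsg.Agent.Lib.Transfer.FunctorComplement.isPGroup_hnpc ?_
    rintro ⟨y, hy⟩
    obtain ⟨g, rfl⟩ := hf y
    obtain ⟨n, hn⟩ := hLp ⟨g, hy⟩
    refine ⟨n, Subtype.ext ?_⟩
    have h1 : g ^ p ^ n = 1 := by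
      have := congrArg Subtype.val hn
      simpa using this
    simp only [Subgroup.coe_pow, Subgroup.coe_one]
    rw [← map_pow, h1, map_one]

/-- **The axiomatic ZJ theorem, minimal overgroup form.** -/
theorem family_normal_of_overgroups (hp2 : p ≠ 2) {X : Type u} [Group X] [Finite X]
    (hc : centralizer (pCore p X : Set X) ≤ pCore p X) (P₀ : Sylow p X)
    (hprop : ∀ H : Subgroup X, (P₀ : Subgroup X) ≤ H → H ≠ ⊤ → IsPGroup p H)
    {𝒜 : Set (Subgroup X)} (hAS : ∀ A ∈ 𝒜, A ≤ P₀) (hAc : ∀ A ∈ 𝒜, ∀ x ∈ A, ∀ y ∈ A, x * y = y * x)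
    (hne : 𝒜.Nonempty)
    (hinv : ∀ Q : Subgroup X, Q ≤ P₀ → (∃ A ∈ 𝒜, A ≤ Q) → ∀ n ∈ normalizer (Q : Set X), ∀ x ∈ II 𝒜 Q,
      n * x * n⁻¹ ∈ II 𝒜 Q)
    (hrep : ∀ B : Subgroup X, B ≤ P₀ → ⁅⁅B, B⁆, B⁆ = ⊥ → (∃ A ∈ 𝒜, ⁅B, B⁆ ≤ A ∧ ¬ B ≤ A) →
      ∃ A ∈ 𝒜, ⁅B, B⁆ ≤ A ∧ ¬ B ≤ A ∧ B ≤ normalizer (A : Set X)) :
    (II 𝒜 P₀).Normal := by
  have hprop' : ∀ H : Subgroup X, (P₀ : Subgroup X) ≤ H → H ≠ ⊤ → HasNormalPComplement p H :=
    fun H h1 h2 => Cfsg.Agent.Lib.Transfer.FunctorComplement.isPGroup_hnpc (hprop H h1 h2)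
  refine family_normal P₀ hc ?_ hAS hAc hne hinv hrep
  intro R hRn hR a _ hq
  exact Cfsg.Agent.Lib.PGroup.GTOdd.isPStableOn_of_overgroups hp2 hc P₀ hprop'
    (hq_of_overgroups hp2 P₀ hprop) R hR a hq

end Cfsg.Agent.Lib.Fusion.GT.Family
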