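/-
The axiomatic Glauberman–Thompson theorem for saturated fusion systems: the constrained case.
-/
import Mathlib
import Cfsg.Prelude.Def_FusionComponents
import Cfsg.Agent.Lib.Fusion.GT.Main
import Cfsg.Agent.Lib.Fusion.GT.Family
import Cfsg.Agent.Lib.Fusion.KNormalizer

set_option autoImplicit false

namespace Cfsg.Agent.Lib.Fusion.GT.FamilyF

open Cfsg Cfsg.FusionSystem Cfsg.Agent.Lib.Fusion.Basic Cfsg.Agent.Lib.Fusion.Saturated
  Cfsg.Agent.Lib.Fusion.Saturated2 Cfsg.Agent.Lib.Fusion.ModelLocal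
  Cfsg.Agent.Lib.Fusion.GT.Local Cfsg.Agent.Lib.Fusion.GT.Constrained
  Cfsg.Agent.Lib.Fusion.GT.Family Cfsg.Agent.Lib.Fusion.FactorMorphism

universe u

variable {Ω : Type u} [Group Ω] {T : Subgroup Ω} {E : FusionSystem T} {p : ℕ} [Fact p.Prime]

section transport

variable {X : Type u} [Group X] {ι' : T →* X}

theorem image_le_iff {A : Subgroup Ω} (hA : A ≤ T) {Q' : Subgroup X} :
    imageAlong ι' A ≤ Q' ↔ A ≤ preimageAlong ι' Q' := by
  constructor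
  · intro h a ha
    exact mem_preimage.2 ⟨hA ha, h ⟨⟨a, hA ha⟩, ha, rfl⟩⟩
  · rintro h _ ⟨t, ht, rfl⟩
    obtain ⟨_, h2⟩ := mem_preimage.1 (h ht)
    exact h2

theorem map_mem_image_iff (hι' : Function.Injective ι') {A : Subgroup Ω} {t : T} :
    ι' t ∈ imageAlong ι' A ↔ (t : Ω) ∈ A := by
  constructor
  · rintro ⟨t', ht', e⟩
    rw [← hι' e]
    exact ht'
  · intro h
    exact ⟨t, h, rfl⟩

theorem map_mem_II_iff (hι' : Function.Injective ι') {𝒜 : Set (Subgroup Ω)} (hAT : ∀ A ∈ 𝒜, A ≤ T)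
    {Q' : Subgroup X} {t : T} :
    ι' t ∈ II (imageAlong ι' '' 𝒜) Q' ↔ (t : Ω) ∈ II 𝒜 (preimageAlong ι' Q') := by
  rw [mem_II, mem_II]
  constructor
  · intro h A hA hle
    exact (map_mem_image_iff hι').1 (h _ ⟨A, hA, rfl⟩ ((image_le_iff (hAT A hA)).2 hle))
  · rintro h _ ⟨A, hA, rfl⟩ hle
    exact (map_mem_image_iff hι').2 (h A hA ((image_le_iff (hAT A hA)).1 hle))

theorem comm_map_preimage_eq_bot (hι' : Function.Injective ι') {B' : Subgroup X} (hB' : B' ≤ ι'.range)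
    (h : ⁅⁅B', B'⁆, B'⁆ = ⊥) :
    ⁅⁅preimageAlong ι' B', preimageAlong ι' B'⁆, preimageAlong ι' B'⁆ = ⊥ := by
  have e1 : (B'.comap ι').map ι' = B' := by
    rw [Subgroup.map_comap_eq_self hB']
  have e2 : (⁅⁅B'.comap ι', B'.comap ι'⁆, B'.comap ι'⁆ : Subgroup T) = ⊥ := by
    rw [← Subgroup.map_eq_bot_iff_of_injective _ hι', Subgroup.map_commutator, Subgroup.map_commutator, e1, h]
  show ⁅⁅(B'.comap ι').map T.subtype, (B'.comap ι').map T.subtype⁆, (B'.comap ι').map T.subtype⁆ = ⊥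
  rw [← Subgroup.map_commutator, ← Subgroup.map_commutator, e2, Subgroup.map_bot]

theorem comm_preimage_le_iff (hι' : Function.Injective ι') {B' : Subgroup X} (hB' : B' ≤ ι'.range)
    {A : Subgroup Ω} (hA : A ≤ T) :
    ⁅preimageAlong ι' B', preimageAlong ι' B'⁆ ≤ A ↔ ⁅B', B'⁆ ≤ imageAlong ι' A := by
  have e1 : (B'.comap ι').map ι' = B' := by
    rw [Subgroup.map_comap_eq_self hB']
  have e2 : (A.subgroupOf T).map T.subtype = A := by
    rw [Subgroup.subgroupOf_map_subtype, inf_of_le_left hA]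
  have h1 : ⁅B', B'⁆ = (⁅B'.comap ι', B'.comap ι'⁆ : Subgroup T).map ι' := by
    rw [Subgroup.map_commutator, e1]
  have h2 : ⁅preimageAlong ι' B', preimageAlong ι' B'⁆ =
      (⁅B'.comap ι', B'.comap ι'⁆ : Subgroup T).map T.subtype := by
    rw [Subgroup.map_commutator]
    rfl
  rw [h1, h2]
  show _ ≤ A ↔ _ ≤ (A.subgroupOf T).map ι'
  conv_lhs => rw [← e2]
  rw [Subgroup.map_le_map_iff_of_injective T.subtype_injective,
    Subgroup.map_le_map_iff_of_injective hι']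

theorem preimage_le_iff (hι' : Function.Injective ι') {B' : Subgroup X} (hB' : B' ≤ ι'.range)
    {A : Subgroup Ω} (hA : A ≤ T) :
    preimageAlong ι' B' ≤ A ↔ B' ≤ imageAlong ι' A := by
  have e1 : (B'.comap ι').map ι' = B' := by
    rw [Subgroup.map_comap_eq_self hB']
  have e2 : (A.subgroupOf T).map T.subtype = A := by
    rw [Subgroup.subgroupOf_map_subtype, inf_of_le_left hA]
  show (B'.comap ι').map T.subtype ≤ A ↔ B' ≤ (A.subgroupOf T).map ι'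
  conv_rhs => rw [← e1]
  conv_lhs => rw [← e2]
  rw [Subgroup.map_le_map_iff_of_injective T.subtype_injective,
    Subgroup.map_le_map_iff_of_injective hι']

theorem image_normalizer (hι' : Function.Injective ι') {B' : Subgroup X} (hB' : B' ≤ ι'.range)
    {A : Subgroup Ω} (hA : A ≤ T) (h : preimageAlong ι' B' ≤ Subgroup.normalizer (A : Set Ω)) :
    B' ≤ Subgroup.normalizer (imageAlong ι' A : Set X) := by
  intro x hx
  obtain ⟨t, rfl⟩ := hB' hx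
  have ht : (t : Ω) ∈ Subgroup.normalizer (A : Set Ω) := h (mem_preimage.2 ⟨t.2, hx⟩)
  have h1 : t ∈ Subgroup.normalizer ((A.subgroupOf T : Subgroup T) : Set T) := by
    refine Subgroup.mem_normalizer_iff.2 fun y => ?_
    rw [Subgroup.mem_subgroupOf, Subgroup.mem_subgroupOf]
    exact Subgroup.mem_normalizer_iff.1 ht y
  exact Subgroup.le_normalizer_map ι' ⟨t, h1, rfl⟩

end transport

/-- The key step in the model: an element of `N_G(W)` of order prime to `p` is trivial. -/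
theorem eq_one_of_coprime_of_normalizer [Finite T] {G : Type u} [Group G] {ι : T →* G}
    (hreal : E.IsRealizedBy ι) {Q W : Subgroup Ω} (hQT : Q ≤ T) (hWT : W ≤ T)
    (hN : T ≤ Subgroup.normalizer (Q : Set Ω))
    (hVconj : ∀ (g : G), ∀ v ∈ (Q.subgroupOf T).map ι, g * v * g⁻¹ ∈ (Q.subgroupOf T).map ι)
    (hVc : ∀ g : G, (∀ q : Q, g * ι ⟨q, hQT q.2⟩ * g⁻¹ = ι ⟨q, hQT q.2⟩) → g ∈ (Q.subgroupOf T).map ι)
    (hVp : ∀ v ∈ (Q.subgroupOf T).map ι, ∃ n : ℕ, v ^ p ^ n = 1)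
    (hWN : T ≤ Subgroup.normalizer (W : Set Ω))
    (h : LocalP p E W) {y : G} (hy : y ∈ Subgroup.normalizer ((W.subgroupOf T).map ι : Set G))
    (hyc : (orderOf y).Coprime p) : y = 1 := by
  have hVmem : ∀ q : Q, ι ⟨q, hQT q.2⟩ ∈ (Q.subgroupOf T).map ι := fun q => ⟨⟨q, hQT q.2⟩, q.2, rfl⟩
  set X : Subgroup Ω := Q ⊔ W with hX
  have hXT : X ≤ T := sup_le hQT hWT
  have hWX : W ≤ X := le_sup_right
  have hQX : Q ≤ X := le_sup_left
  have hXN : X ≤ Subgroup.normalizer (W : Set Ω) := hXT.trans hWN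
  have hconjQ : ∀ q (hq : q ∈ Q), ∃ q' ∈ Q, ∃ hq' : q' ∈ T, y * ι ⟨q, hQT hq⟩ * y⁻¹ = ι ⟨q', hq'⟩ := by
    intro q hq
    obtain ⟨⟨q', hq'T⟩, hq', e⟩ := hVconj y _ (hVmem ⟨q, hq⟩)
    exact ⟨q', hq', hq'T, e.symm⟩
  have hconjW : ∀ w (hw : w ∈ W), ∃ w' ∈ W, ∃ hw' : w' ∈ T, y * ι ⟨w, hWT hw⟩ * y⁻¹ = ι ⟨w', hw'⟩ := by
    intro w hw
    have h1 : ι ⟨w, hWT hw⟩ ∈ (W.subgroupOf T).map ι := ⟨⟨w, hWT hw⟩, hw, rfl⟩
    obtain ⟨⟨w', hw'T⟩, hw', e⟩ := (Subgroup.mem_normalizer_iff.1 hy _).1 h1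
    exact ⟨w', hw', hw'T, e.symm⟩
  have hWNQ : W ≤ Subgroup.normalizer (Q : Set Ω) := hWT.trans hN
  have hconjX : ∀ r (hr : r ∈ X), ∃ r' ∈ X, ∃ hr' : r' ∈ T, y * ι ⟨r, hXT hr⟩ * y⁻¹ = ι ⟨r', hr'⟩ := by
    intro r hr
    have hr2 : r ∈ W ⊔ Q := by rwa [sup_comm]
    obtain ⟨w, hw, q, hq, rfl⟩ := Cfsg.Agent.Lib.Fusion.GroupSylow.exists_mul_of_mem_sup hWNQ hr2
    obtain ⟨q', hq', hq'T, e1⟩ := hconjQ q hq
    obtain ⟨w', hw', hw'T, e2⟩ := hconjW w hw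
    refine ⟨w' * q', X.mul_mem (hWX hw') (hQX hq'), T.mul_mem hw'T hq'T, ?_⟩
    have e3 : (⟨w * q, hXT hr⟩ : T) = ⟨w, hWT hw⟩ * ⟨q, hQT hq⟩ := rfl
    have e4 : (⟨w' * q', T.mul_mem hw'T hq'T⟩ : T) = ⟨w', hw'T⟩ * ⟨q', hq'T⟩ := rfl
    rw [e3, e4, map_mul, map_mul, ← e1, ← e2]
    group
  obtain ⟨ψ, hψ, hψv⟩ := Model.exists_hom_of_conj hreal hXT y (by
    rintro ⟨r, hr⟩
    obtain ⟨r', -, hr'T, e⟩ := hconjX r hr
    show y * ι ⟨r, hXT hr⟩ * y⁻¹ ∈ ι.range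
    rw [e]
    exact ⟨_, rfl⟩)
  have hψX : ∀ r : X, ψ r ∈ X := by
    rintro ⟨r, hr⟩
    obtain ⟨r', hr', hr'T, e⟩ := hconjX r hr
    obtain ⟨hs, hse⟩ := hψv ⟨r, hr⟩
    have : ι ⟨ψ ⟨r, hr⟩, hs⟩ = ι ⟨r', hr'T⟩ := by
      rw [hse]
      exact e
    have h2 := congrArg Subtype.val (hreal.1 this)
    simp only at h2
    rw [h2]
    exact hr'
  have : Finite X := finite_of_le hXT
  set β : MulAut X := autOfHom ψ (E.injective_of_mem hψ) hψX with hβ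
  have hβmem : β ∈ E.autGroup X := autOfHom_mem hψ hψX
  have hβι : ∀ x : X, ι ⟨(β x : X), hXT (β x).2⟩ = y * ι ⟨x, hXT x.2⟩ * y⁻¹ := by
    intro x
    obtain ⟨hs, hse⟩ := hψv x
    rw [← hse]
    rfl
  have hβW : ∀ x : X, (x : Ω) ∈ W → ((β x : X) : Ω) ∈ W := by
    rintro ⟨x, hxX⟩ hxW
    have hxW' : x ∈ W := hxW
    obtain ⟨w', hw', hw'T, e⟩ := hconjW x hxW'
    have h1 := hβι ⟨x, hxX⟩
    have h2 : ι ⟨(β ⟨x, hxX⟩ : X), hXT (β ⟨x, hxX⟩).2⟩ = ι ⟨w', hw'T⟩ := h1.trans e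
    have h3 := congrArg Subtype.val (hreal.1 h2)
    simp only at h3
    rw [h3]
    exact hw'
  obtain ⟨n, hn⟩ := h X hXT hWX hXN β hβmem hβW
  have he : β ^ orderOf y = 1 := pow_eq_one_of_conj hreal.1 hXT hβι (pow_orderOf_eq_one y)
  have hβ1 : β = 1 := by
    have hg := pow_gcd_eq_one.2 ⟨he, hn⟩
    have hcop : Nat.gcd (orderOf y) (p ^ n) = 1 := Nat.Coprime.pow_right n hyc
    rwa [hcop, pow_one] at hg
  have hyV : y ∈ (Q.subgroupOf T).map ι := by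
    apply hVc
    intro q
    have h1 := hβι ⟨q, hQX q.2⟩
    rw [hβ1] at h1
    exact h1.symm
  obtain ⟨m, hm⟩ := hVp y hyV
  have hg := pow_gcd_eq_one.2 ⟨pow_orderOf_eq_one y, hm⟩
  have hcop : Nat.gcd (orderOf y) (p ^ m) = 1 := Nat.Coprime.pow_right m hyc
  rwa [hcop, pow_one] at hg

theorem II_image_eq {X : Type u} [Group X] {ι' : T →* X} (hι' : Function.Injective ι')
    {𝒜 : Set (Subgroup Ω)} (hAT : ∀ A ∈ 𝒜, A ≤ T) (hne : 𝒜.Nonempty) {P₀ : Subgroup X}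
    (hP₀ : P₀ = ι'.range) :
    II (imageAlong ι' '' 𝒜) P₀ = imageAlong ι' (II 𝒜 T) := by
  subst hP₀
  have hle : ∀ A : Subgroup Ω, imageAlong ι' A ≤ ι'.range := by
    rintro A _ ⟨t, -, rfl⟩
    exact ⟨t, rfl⟩
  obtain ⟨A₀, hA₀⟩ := hne
  apply le_antisymm
  · intro x hx
    obtain ⟨t, -, rfl⟩ := mem_II.1 hx _ ⟨A₀, hA₀, rfl⟩ (hle A₀)
    refine ⟨t, mem_II.2 fun A hA _ => ?_, rfl⟩
    exact (map_mem_image_iff hι').1 (mem_II.1 hx _ ⟨A, hA, rfl⟩ (hle A))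
  · rintro _ ⟨t, ht, rfl⟩
    refine mem_II.2 ?_
    rintro _ ⟨A, hA, rfl⟩ -
    exact (map_mem_image_iff hι').2 (mem_II.1 ht A hA (hAT A hA))

/-- **The axiomatic theorem in the constrained case.** -/
theorem nil_of_family [Finite T] (hT : IsPGroup p T) (hsat : E.IsSaturated p) {Q : Subgroup Ω}
    (hQ : E.IsNormal Q) (hC : centralizerIn T Q ≤ Q) (hp2 : p ≠ 2) {𝒜 : Set (Subgroup Ω)}
    (hAT : ∀ A ∈ 𝒜, A ≤ T) (hAc : ∀ A ∈ 𝒜, ∀ x ∈ A, ∀ y ∈ A, x * y = y * x) (hne : 𝒜.Nonempty)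
    (hinv : ∀ R : Subgroup Ω, R ≤ T → (∃ A ∈ 𝒜, A ≤ R) → ∀ α ∈ E.autGroup R, ∀ x : R,
      (x : Ω) ∈ II 𝒜 R → ((α x : R) : Ω) ∈ II 𝒜 R)
    (hrep : ∀ B : Subgroup Ω, B ≤ T → ⁅⁅B, B⁆, B⁆ = ⊥ → (∃ A ∈ 𝒜, ⁅B, B⁆ ≤ A ∧ ¬ B ≤ A) →
      ∃ A ∈ 𝒜, ⁅B, B⁆ ≤ A ∧ ¬ B ≤ A ∧ B ≤ Subgroup.normalizer (A : Set Ω))
    (h : LocalP p E (II 𝒜 T)) : Nil p E := by
  classical
  obtain ⟨G, _, ι, hfin, hreal, ⟨TG, hTG⟩, hcent⟩ :=
    Cfsg.Agent.Lib.Fusion.ModelF.exists_model hT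
      (F := E) ⟨hsat, Q, hQ, isCentric_of_isNormal hQ hC⟩
  have := hfin
  have hQT : Q ≤ T := hQ.1
  have hN : T ≤ Subgroup.normalizer (Q : Set Ω) :=
    Cfsg.Agent.Lib.Fusion.NormalCR.StronglyClosed.le_normalizer
      (Cfsg.Agent.Lib.Fusion.NormalCR.IsNormal.stronglyClosed hQ)
  have hVmem : ∀ q : Q, ι ⟨q, hQT q.2⟩ ∈ (Q.subgroupOf T).map ι := fun q => ⟨⟨q, hQT q.2⟩, q.2, rfl⟩
  have hVconj : ∀ (g : G), ∀ v ∈ (Q.subgroupOf T).map ι, g * v * g⁻¹ ∈ (Q.subgroupOf T).map ι := by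
    rintro g _ ⟨⟨q, hqS⟩, hq, rfl⟩
    obtain ⟨q', hq'⟩ := Cfsg.Agent.Lib.Fusion.ModelUniq.exists_conj_Q hreal hTG hcent hQ hQT hN g
      ⟨q, hq⟩
    rw [show (⟨q, hqS⟩ : T) = ⟨((⟨q, hq⟩ : Q) : Ω), hQT hq⟩ from rfl, hq']
    exact hVmem q'
  have hVc : ∀ g : G, (∀ q : Q, g * ι ⟨q, hQT q.2⟩ * g⁻¹ = ι ⟨q, hQT q.2⟩) → g ∈ (Q.subgroupOf T).map ι := by
    intro g hg
    obtain ⟨z, rfl⟩ := Cfsg.Agent.Lib.Fusion.ModelUniq.exists_center_of_centralizes hreal hTG hcent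
      hQ hQT hN hC g hg
    exact hVmem z
  have hVp : ∀ v ∈ (Q.subgroupOf T).map ι, ∃ n : ℕ, v ^ p ^ n = 1 := by
    rintro _ ⟨q, -, rfl⟩
    obtain ⟨n, hn⟩ := hT q
    refine ⟨n, ?_⟩
    rw [← map_pow, hn, map_one]
  obtain ⟨A₀, hA₀⟩ := id hne
  set W : Subgroup Ω := II 𝒜 T with hW
  have hWA : W ≤ A₀ := fun x hx => mem_II.1 hx A₀ hA₀ (hAT A₀ hA₀)
  have hWT : W ≤ T := hWA.trans (hAT A₀ hA₀)
  have hWN : T ≤ Subgroup.normalizer (W : Set Ω) := by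
    have key : ∀ t ∈ T, ∀ x ∈ W, t * x * t⁻¹ ∈ W := by
      intro t ht x hx
      have hN' : t ∈ Subgroup.normalizer (T : Set Ω) := Subgroup.le_normalizer ht
      exact hinv T le_rfl ⟨A₀, hA₀, hAT A₀ hA₀⟩ (normConj t hN')
        (autInducedBy_le_autGroup le_rfl (normConj_mem_autInducedBy ht hN')) ⟨x, hWT hx⟩ hx
    intro t ht
    refine Subgroup.mem_normalizer_iff.2 fun x => ⟨key t ht x, fun hx => ?_⟩
    have := key t⁻¹ (T.inv_mem ht) _ hx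
    simpa [mul_assoc] using this
  -- `G` is a `p`-group
  have hTop : (TG : Subgroup G) = ⊤ := by
    by_contra hTGne
    obtain ⟨H, hH, hmin⟩ := Set.exists_min_image {H : Subgroup G | (TG : Subgroup G) < H}
      (fun H => Nat.card H) (Set.toFinite _) ⟨⊤, lt_top_iff_ne_top.2 hTGne⟩
    have hHlt : (TG : Subgroup G) < H := hH
    have hTGH : (TG : Subgroup G) ≤ H := hHlt.le
    let ι' : T →* H := ι.codRestrict H (fun t => hTGH (by rw [hTG]; exact ⟨t, rfl⟩))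
    have hι' : Function.Injective ι' := fun a b hab => hreal.1 (congrArg Subtype.val hab)
    let P₀ : Sylow p H := TG.subtype hTGH
    have hP₀ : (P₀ : Subgroup H) = ι'.range := by
      ext x
      show (x : G) ∈ (TG : Subgroup G) ↔ _
      rw [hTG]
      constructor
      · rintro ⟨t, ht⟩
        exact ⟨t, Subtype.ext ht⟩
      · rintro ⟨t, rfl⟩
        exact ⟨t, rfl⟩
    have hcX : Subgroup.centralizer (pCore p H : Set H) ≤ pCore p H := by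
      have hOn : (pCore p G).Normal := Cfsg.Agent.Lib.Basic.PCore.pCore_normal p G
      have hle : (pCore p G).subgroupOf H ≤ pCore p H := by
        refine Cfsg.Agent.Lib.Basic.PCore.le_pCore (Subgroup.Normal.subgroupOf hOn H) ?_
        rintro ⟨x, hx⟩
        obtain ⟨n, hn⟩ := Cfsg.Agent.Lib.Basic.PCore.pCore_isPGroup (G := G) p ⟨x, hx⟩
        refine ⟨n, Subtype.ext ?_⟩
        have h2 : ((x : H) : G) ^ p ^ n = 1 := by
          simpa using congrArg Subtype.val hn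
        apply Subtype.ext
        simpa using h2
      intro c hc
      apply hle
      rw [Subgroup.mem_subgroupOf]
      apply hcent
      refine Subgroup.mem_centralizer_iff.2 fun o ho => ?_
      have ho' : o ∈ pCore p G := ho
      have hoH : o ∈ H := hTGH (Cfsg.Agent.Lib.Basic.PCore.pCore_le_sylow TG ho')
      have h1 := Subgroup.mem_centralizer_iff.1 hc ⟨o, hoH⟩ (hle (show (⟨o, hoH⟩ : H) ∈ _ from ho'))
      exact congrArg Subtype.val h1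
    have hprop : ∀ H₀ : Subgroup H, (P₀ : Subgroup H) ≤ H₀ → H₀ ≠ ⊤ → IsPGroup p H₀ := by
      intro H₀ h1 h2
      have hTH' : (TG : Subgroup G) ≤ H₀.map H.subtype := fun x hx =>
        ⟨⟨x, hTGH hx⟩, h1 (show (⟨x, hTGH hx⟩ : H) ∈ (P₀ : Subgroup H) from hx), rfl⟩
      have hH'H : H₀.map H.subtype ≤ H := Subgroup.map_subtype_le _
      by_cases heq : (TG : Subgroup G) = H₀.map H.subtype
      · rintro ⟨x, hx⟩
        have hxTG : (x : G) ∈ (TG : Subgroup G) := by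
          rw [heq]
          exact ⟨x, hx, rfl⟩
        obtain ⟨n, hn⟩ := TG.isPGroup' ⟨x, hxTG⟩
        refine ⟨n, Subtype.ext (Subtype.ext ?_)⟩
        simpa using congrArg Subtype.val hn
      · exfalso
        have h3 := hmin (H₀.map H.subtype) (lt_of_le_of_ne hTH' heq)
        have h4 : H₀.map H.subtype = H := Subgroup.eq_of_le_of_card_ge hH'H h3
        apply h2
        rw [eq_top_iff]
        intro x _
        have h5 : (x : G) ∈ H₀.map H.subtype := by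
          rw [h4]
          exact x.2
        obtain ⟨y, hy, hye⟩ := h5
        have : y = x := Subtype.ext hye
        rwa [← this]
    have hAS : ∀ A' ∈ imageAlong ι' '' 𝒜, A' ≤ (P₀ : Subgroup H) := by
      rintro _ ⟨A, -, rfl⟩
      rw [hP₀]
      rintro _ ⟨t, -, rfl⟩
      exact ⟨t, rfl⟩
    have hAcX : ∀ A' ∈ imageAlong ι' '' 𝒜, ∀ x ∈ A', ∀ y ∈ A', x * y = y * x := by
      rintro _ ⟨A, hA, rfl⟩ _ ⟨t, ht, rfl⟩ _ ⟨u, hu, rfl⟩
      rw [← map_mul, ← map_mul]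
      congr 1
      exact Subtype.ext (hAc A hA t ht u hu)
    have hinvX : ∀ Q' : Subgroup H, Q' ≤ (P₀ : Subgroup H) → (∃ A ∈ imageAlong ι' '' 𝒜, A ≤ Q') →
        ∀ n ∈ Subgroup.normalizer (Q' : Set H), ∀ x ∈ II (imageAlong ι' '' 𝒜) Q',
          n * x * n⁻¹ ∈ II (imageAlong ι' '' 𝒜) Q' := by
      rintro Q' hQ' ⟨_, ⟨A, hA, rfl⟩, hAQ'⟩ n hn x hx
      rw [hP₀] at hQ'
      have hRT : preimageAlong ι' Q' ≤ T := preimage_le ι' Q'
      have hAR : A ≤ preimageAlong ι' Q' := (image_le_iff (hAT A hA)).1 hAQ'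
      obtain ⟨t, -, rfl⟩ := mem_II.1 hx _ ⟨A, hA, rfl⟩ hAQ'
      have ht : (t : Ω) ∈ II 𝒜 (preimageAlong ι' Q') := (map_mem_II_iff hι' hAT).1 hx
      have htR : (t : Ω) ∈ preimageAlong ι' Q' := hAR (mem_II.1 ht A hA hAR)
      have hconj : ∀ r : preimageAlong ι' Q', ∃ hr : (r : Ω) ∈ T, n * ι' ⟨r, hr⟩ * n⁻¹ ∈ Q' := by
        intro r
        obtain ⟨h1, h2⟩ := mem_preimage.1 r.2
        exact ⟨h1, (Subgroup.mem_normalizer_iff.1 hn _).1 h2⟩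
      obtain ⟨ψ, hψ, hψv⟩ := Model.exists_hom_of_conj hreal hRT (n : G) (by
        intro r
        obtain ⟨h1, h2⟩ := hconj r
        obtain ⟨t', ht'⟩ := hQ' h2
        exact ⟨t', congrArg Subtype.val ht'⟩)
      have hψι : ∀ (r : preimageAlong ι' Q') (hs : ψ r ∈ T), ι' ⟨ψ r, hs⟩ = n * ι' ⟨r, hRT r.2⟩ * n⁻¹ := by
        intro r hs
        obtain ⟨_, hse⟩ := hψv r
        exact Subtype.ext hse
      have hψR : ∀ r : preimageAlong ι' Q', ψ r ∈ preimageAlong ι' Q' := by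
        intro r
        obtain ⟨hs, _⟩ := hψv r
        obtain ⟨_, h2⟩ := hconj r
        refine mem_preimage.2 ⟨hs, ?_⟩
        rw [hψι r hs]
        exact h2
      have : Finite (preimageAlong ι' Q') := finite_of_le hRT
      have hβ := autOfHom_mem hψ hψR
      have h3 := hinv _ hRT ⟨A, hA, hAR⟩ _ hβ ⟨t, htR⟩ ht
      obtain ⟨hs, _⟩ := hψv ⟨t, htR⟩
      have e : n * ι' t * n⁻¹ = ι' ⟨ψ ⟨t, htR⟩, hs⟩ := (hψι ⟨t, htR⟩ hs).symm
      rw [e]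
      exact (map_mem_II_iff hι' hAT).2 h3
    have hrepX : ∀ B' : Subgroup H, B' ≤ (P₀ : Subgroup H) → ⁅⁅B', B'⁆, B'⁆ = ⊥ →
        (∃ A ∈ imageAlong ι' '' 𝒜, ⁅B', B'⁆ ≤ A ∧ ¬ B' ≤ A) →
        ∃ A ∈ imageAlong ι' '' 𝒜, ⁅B', B'⁆ ≤ A ∧ ¬ B' ≤ A ∧ B' ≤ Subgroup.normalizer (A : Set H) := by
      rintro B' hB' hcl ⟨_, ⟨A, hA, rfl⟩, h1, h2⟩
      rw [hP₀] at hB'
      obtain ⟨A₂, hA₂, h3, h4, h5⟩ := hrep (preimageAlong ι' B') (preimage_le _ _)
        (comm_map_preimage_eq_bot hι' hB' hcl)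
        ⟨A, hA, (comm_preimage_le_iff hι' hB' (hAT A hA)).2 h1,
          fun h => h2 ((preimage_le_iff hι' hB' (hAT A hA)).1 h)⟩
      exact ⟨_, ⟨A₂, hA₂, rfl⟩, (comm_preimage_le_iff hι' hB' (hAT A₂ hA₂)).1 h3,
        fun h => h4 ((preimage_le_iff hι' hB' (hAT A₂ hA₂)).2 h),
        image_normalizer hι' hB' (hAT A₂ hA₂) h5⟩
    have hnorm := family_normal_of_overgroups hp2 hcX P₀ hprop hAS hAcX (hne.image _) hinvX hrepX
    -- a nontrivial element of order prime to `p`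
    have hex : ∃ y : H, (orderOf y).Coprime p ∧ y ≠ 1 := by
      by_contra hall
      push Not at hall
      have h1 : IsPGroup p (⊤ : Subgroup H) :=
        Cfsg.Agent.Lib.Coprime.Stability.isPGroup_of_forall_coprime Fact.out _ fun x _ hx => hall x hx
      have h2 := P₀.is_maximal' h1 le_top
      apply hHlt.not_ge
      intro x hx
      have h3 : (⟨x, hx⟩ : H) ∈ (⊤ : Subgroup H) := trivial
      rw [h2] at h3
      exact h3
    obtain ⟨y, hyc, hy1⟩ := hex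
    have e : (W.subgroupOf T).map ι = (II (imageAlong ι' '' 𝒜) (P₀ : Subgroup H)).map H.subtype := by
      rw [II_image_eq hι' hAT hne hP₀, ← hW]
      show _ = ((W.subgroupOf T).map ι').map H.subtype
      rw [Subgroup.map_map]
      rfl
    have hy2 : (y : G) ∈ Subgroup.normalizer ((W.subgroupOf T).map ι : Set G) := by
      rw [e]
      refine Subgroup.le_normalizer_map H.subtype ⟨y, ?_, rfl⟩
      rw [Subgroup.normalizer_eq_top_iff.2 hnorm]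
      trivial
    have hyc' : (orderOf (y : G)).Coprime p := by
      rwa [Subgroup.orderOf_coe]
    have := eq_one_of_coprime_of_normalizer hreal hQT hWT hN hVconj hVc hVp hWN h hy2 hyc'
    exact hy1 (Subtype.ext this)
  have hGp : ∀ g : G, ∃ n : ℕ, g ^ p ^ n = 1 := by
    intro g
    have hg : g ∈ (TG : Subgroup G) := by
      rw [hTop]
      trivial
    obtain ⟨n, hn⟩ := TG.isPGroup' ⟨g, hg⟩
    exact ⟨n, by simpa using congrArg Subtype.val hn⟩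
  rintro P hP ⟨β, hβ⟩
  have hm := autGroup_mem_hom hP hβ
  obtain ⟨g, hg⟩ := Model.exists_conj_of_mem hreal hm
  obtain ⟨n, hn⟩ := hGp g
  refine ⟨n, Subtype.ext ?_⟩
  exact pow_eq_one_of_conj hreal.1 hP (fun x => hg x _ _) hn

section top

open Cfsg.Agent.Lib.Fusion.GT.Main Cfsg.Agent.Lib.Fusion.GT.Quotient Cfsg.Agent.Lib.PGroup.ZJ

variable {S : Subgroup Ω} {F : FusionSystem S}

/-- The maximal bad subgroup is normal in `S`. -/
theorem normal_of_max [Finite S] (hp2 : p ≠ 2) (hS : IsPGroup p S) (hF : F.IsSaturated p)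
    {Q : Subgroup Ω} (hQ : Q ∈ QQ p F)
    (hstar : ∀ R : Subgroup Ω, R ≤ S → R ≠ ⊥ → mu S Q < mu S R → LocalP p F R) :
    S ≤ Subgroup.normalizer (Q : Set Ω) := by
  obtain ⟨hQne, hQFN, hQbad⟩ := id hQ
  have hQS : Q ≤ S := hQFN.1
  let E : FusionSystem (normalizerIn S Q) := Cfsg.Agent.Lib.Fusion.LocalSystems.normalizerSystem F Q hQS
  have hE : F.IsNormalizerSystem Q E :=
    Cfsg.Agent.Lib.Fusion.LocalSystems.normalizerSystem_isNormalizerSystem F Q hQS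
  have hEF : ∀ P, E.Hom P ⊆ F.Hom P := fun P φ hφ => by
    rw [hE P] at hφ
    exact hφ.1
  have hTS : normalizerIn S Q ≤ S := normalizerIn_le
  have : Finite (normalizerIn S Q) := finite_of_le hTS
  have hTp : IsPGroup p (normalizerIn S Q) := hS.to_le hTS
  have hEsat : E.IsSaturated p := Cfsg.Agent.Lib.Fusion.KNormalizer.isSaturated_normalizerSystem hS hF hQFN hE
  have hEnil : ¬ Nil p E := fun h => hQbad (localP_of_nil_normalizer hE h)
  by_contra hnot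
  have hne : normalizerIn S Q ≠ S := fun h => hnot (inf_eq_left.1 h)
  have hlt : normalizerIn S Q < S := lt_of_le_of_ne hTS hne
  apply hEnil
  refine nil_of_localP (k := 0) hp2 (Or.inl rfl) hTp hEsat (D := normalizerIn S Q)
    ⟨le_rfl, fun _ _ _ hφ x => map_mem_S hφ x⟩ ?_
  refine LocalP.mono hEF hTS (hstar _ ((ZZ_le_self _ _).trans hTS)
    (ZZ_ne_bot' (Or.inl rfl) hS hTS ?_) ?_)
  · intro hbot
    apply hQne
    rw [eq_bot_iff, ← hbot]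
    exact le_normalizerIn hQS
  · apply mu_lt_of_card_lt hQS
    have hNT : normalizerIn S Q < normalizerIn S (normalizerIn S Q) := lt_normalizerIn hS hlt
    have : Finite (normalizerIn S (normalizerIn S Q)) := finite_of_le normalizerIn_le
    have : Finite (normalizerIn S (ZZ 0 (normalizerIn S Q))) := finite_of_le normalizerIn_le
    refine lt_of_lt_of_le (card_lt_of_lt hNT) (Subgroup.card_le_of_le ?_)
    rintro g ⟨hgS, hgT⟩
    exact ⟨hgS, mem_normalizer_ZZ hTS hgS hgT⟩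

/-- **The axiomatic Glauberman–Thompson theorem for saturated fusion systems.** -/
theorem nil_of_family_saturated [Finite S] (hp2 : p ≠ 2) (hS : IsPGroup p S) (hF : F.IsSaturated p)
    {𝒜 : Set (Subgroup Ω)} (hAS : ∀ A ∈ 𝒜, A ≤ S) (hAc : ∀ A ∈ 𝒜, ∀ x ∈ A, ∀ y ∈ A, x * y = y * x)
    (hne : 𝒜.Nonempty)
    (hinv : ∀ R : Subgroup Ω, R ≤ S → (∃ A ∈ 𝒜, A ≤ R) → ∀ α ∈ F.autGroup R, ∀ x : R,
      (x : Ω) ∈ II 𝒜 R → ((α x : R) : Ω) ∈ II 𝒜 R)
    (hrep : ∀ B : Subgroup Ω, B ≤ S → ⁅⁅B, B⁆, B⁆ = ⊥ → (∃ A ∈ 𝒜, ⁅B, B⁆ ≤ A ∧ ¬ B ≤ A) →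
      ∃ A ∈ 𝒜, ⁅B, B⁆ ≤ A ∧ ¬ B ≤ A ∧ B ≤ Subgroup.normalizer (A : Set Ω))
    (h : LocalP p F (II 𝒜 S)) : Nil p F := by
  classical
  by_contra hnil
  have hne2 : (QQ p F).Nonempty := by
    unfold Nil at hnil
    push Not at hnil
    obtain ⟨P, hP, hnp⟩ := hnil
    have hPne : P ≠ ⊥ := by
      rintro rfl
      exact hnp (isPGroup_autGroup_bot F)
    obtain ⟨R', hR', -⟩ := exists_QQ_of_bad hS hF hP hPne (fun h => hnp (LocalP.isPGroup h hP))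
    exact ⟨R', hR'⟩
  obtain ⟨R₀, hR₀⟩ := hne2
  obtain ⟨Q, hQ𝒬, -, hstar⟩ := exists_good_Q hS hF hR₀
  have hSQ := normal_of_max hp2 hS hF hQ𝒬 hstar
  have hQS : Q ≤ S := hQ𝒬.2.1.1
  let E : FusionSystem (normalizerIn S Q) := Cfsg.Agent.Lib.Fusion.LocalSystems.normalizerSystem F Q hQS
  have hE : F.IsNormalizerSystem Q E :=
    Cfsg.Agent.Lib.Fusion.LocalSystems.normalizerSystem_isNormalizerSystem F Q hQS
  have hEF : ∀ P, E.Hom P ⊆ F.Hom P := fun P φ hφ => by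
    rw [hE P] at hφ
    exact hφ.1
  have hT : normalizerIn S Q = S := inf_eq_left.2 hSQ
  have hTS : normalizerIn S Q ≤ S := normalizerIn_le
  have : Finite (normalizerIn S Q) := finite_of_le hTS
  have hTp : IsPGroup p (normalizerIn S Q) := hS.to_le hTS
  obtain ⟨hEsat, hEn, hC, hEnil⟩ := centric_of_max (k := 0) hS hF hQ𝒬 (Or.inl rfl)
    (gtAt hp2 (Or.inl rfl) _) hSQ hstar hE
  refine hEnil (nil_of_family hTp hEsat hEn hC hp2 (𝒜 := 𝒜) (fun A hA => ?_) hAc hne ?_ ?_ ?_)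
  · rw [hT]
    exact hAS A hA
  · intro R hR hex α hα x hx
    refine hinv R (hR.trans hTS) hex α ?_ x hx
    exact mem_autGroup_of_mem (hEF _ (autGroup_mem_hom hR hα))
  · intro B hB hcl hex
    exact hrep B (hB.trans hTS) hcl hex
  · have e : II 𝒜 (normalizerIn S Q) = II 𝒜 S := by rw [hT]
    rw [e]
    exact LocalP.mono hEF hTS h

theorem II_eq_iInf {𝒜 : Set (Subgroup Ω)} (hAS : ∀ A ∈ 𝒜, A ≤ S) : II 𝒜 S = ⨅ A ∈ 𝒜, A := by
  ext x
  rw [mem_II]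
  simp only [Subgroup.mem_iInf]
  exact ⟨fun h A hA => h A hA (hAS A hA), fun h A hA _ => h A hA⟩

end top

end Cfsg.Agent.Lib.Fusion.GT.FamilyF
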