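/-
The group-level generation theorem: a finite group with a normal `p`-subgroup containing `Z(T)`,
`T` Sylow, is generated (on the level of conjugations between subgroups of `T`) by the centralizer of
`℧¹(Z(T))` and the normalizer of `J(T)`.
-/
import Mathlib
import Cfsg.Agent.Lib.PGroup.WeakClosure

set_option autoImplicit false
set_option linter.style.haveILetI false

namespace Cfsg.Agent.Lib.Fusion.GT.GenLocal

open Subgroup Cfsg.Agent.Lib.PGroup.ZJ Cfsg.Agent.Lib.PGroup.Replacement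
open Cfsg.Agent.Lib.PGroup.WeakClosure (JJ_eq_of_le normalizer_le_normalizer_JJ)
open Cfsg.Agent.Lib.PGroup.Timmesfeld (card_sup_mul_card_inf_of_le_normalizer)
open scoped commutatorElement

/-- The norm argument: a fixed point of `H`, of index prime to `p`, is modulo `p`-th powers a fixed point of `R`,
if `R` acts trivially modulo `p`-th powers. -/
theorem exists_fixed_of_norm {p : ℕ} [Fact p.Prime] {A R : Type*} [CommGroup A] [Group R] [Finite R]
    (act : R → A →* A) (act_mul : ∀ g h a, act (g * h) a = act g (act h a)) (H : Subgroup R)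
    (hn : ¬ p ∣ H.index) (hq : ∀ r a, ∃ y, act r a = a * y ^ p) {w : A} (hw : ∀ h ∈ H, act h w = w) :
    ∃ c y : A, (∀ r, act r c = c) ∧ w = c * y ^ p := by
  classical
  haveI : Fintype (R ⧸ H) := Fintype.ofFinite _
  choose yy hyy using hq
  set Nw : A := ∏ c : R ⧸ H, act c.out w with hNw
  have hfix : ∀ g, act g Nw = Nw := by
    intro g
    rw [hNw, map_prod]
    rw [← Equiv.prod_comp (MulAction.toPerm (α := R) (β := R ⧸ H) g) (fun c => act c.out w)]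
    refine Finset.prod_congr rfl fun c _ => ?_
    obtain ⟨h, hh⟩ := QuotientGroup.mk_out_eq_mul H (g * c.out)
    have e : (MulAction.toPerm (α := R) (β := R ⧸ H) g) c = ((g * c.out : R) : R ⧸ H) := by
      conv_lhs => rw [← QuotientGroup.out_eq' c]
      rfl
    rw [e, hh, act_mul, hw h h.2, act_mul]
  have hcard : Fintype.card (R ⧸ H) = H.index := by
    rw [← Nat.card_eq_fintype_card]
    rfl
  set Y : A := ∏ c : R ⧸ H, yy c.out w with hY
  have hN : Nw = w ^ H.index * Y ^ p := by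
    rw [hNw, hY, ← Finset.prod_pow, ← hcard, ← Finset.card_univ, ← Finset.prod_const,
      ← Finset.prod_mul_distrib]
    exact Finset.prod_congr rfl fun c _ => hyy _ _
  have hco : Nat.Coprime H.index p := ((Nat.Prime.coprime_iff_not_dvd Fact.out).2 hn).symm
  have hbez := Nat.gcd_eq_gcd_ab H.index p
  rw [hco.gcd_eq_one] at hbez
  set a : ℤ := Nat.gcdA H.index p with ha
  set b : ℤ := Nat.gcdB H.index p with hb
  refine ⟨Nw ^ a, Y ^ (-a) * w ^ b, fun r => ?_, ?_⟩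
  · rw [map_zpow, hfix]
  · have h1 : w = w ^ ((H.index : ℤ) * a) * w ^ ((p : ℤ) * b) := by
      rw [← zpow_add, ← hbez]
      simp
    have h2 : (Y ^ (-a)) ^ p = ((Y ^ p) ^ a)⁻¹ := by
      rw [zpow_neg, inv_pow, ← zpow_natCast, ← zpow_natCast, ← zpow_mul, ← zpow_mul, mul_comm]
    have h3 : (w ^ b) ^ p = w ^ ((p : ℤ) * b) := by
      rw [← zpow_natCast, ← zpow_mul, mul_comm]
    have h4 : (w ^ H.index) ^ a = w ^ ((H.index : ℤ) * a) := by
      rw [← zpow_natCast, ← zpow_mul]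
    rw [hN, mul_zpow, mul_pow, h2, h3, h4]
    calc w = w ^ ((H.index : ℤ) * a) * w ^ ((p : ℤ) * b) := h1
      _ = _ := by
        rw [mul_assoc, mul_inv_cancel_left]

variable {G : Type*} [Group G] {p : ℕ}

/-- The subgroup generated by the `p`-th powers. -/
def agemo (p : ℕ) (V : Subgroup G) : Subgroup G := closure {y | ∃ v ∈ V, y = v ^ p}

theorem pow_mem_agemo {V : Subgroup G} {v : G} (hv : v ∈ V) : v ^ p ∈ agemo p V :=
  subset_closure ⟨v, hv, rfl⟩

theorem exists_pow_of_mem_agemo {V : Subgroup G} (hab : ∀ x ∈ V, ∀ y ∈ V, x * y = y * x) {y : G}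
    (hy : y ∈ agemo p V) : ∃ v ∈ V, y = v ^ p := by
  induction hy using Subgroup.closure_induction with
  | mem x hx => exact hx
  | one => exact ⟨1, one_mem _, (one_pow p).symm⟩
  | mul x y _ _ hx hy =>
    obtain ⟨w₁, hw₁, rfl⟩ := hx
    obtain ⟨w₂, hw₂, rfl⟩ := hy
    refine ⟨w₁ * w₂, mul_mem hw₁ hw₂, ?_⟩
    have hc : Commute w₁ w₂ := hab _ hw₁ _ hw₂
    exact (hc.mul_pow p).symm
  | inv x _ hx =>
    obtain ⟨w, hw, rfl⟩ := hx
    exact ⟨w⁻¹, inv_mem hw, (inv_pow w p).symm⟩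

theorem conj_mem_agemo {V : Subgroup G} {g : G} (hg : ∀ v ∈ V, g * v * g⁻¹ ∈ V) {y : G}
    (hy : y ∈ agemo p V) : g * y * g⁻¹ ∈ agemo p V := by
  induction hy using Subgroup.closure_induction with
  | mem x hx =>
    obtain ⟨v, hv, rfl⟩ := hx
    have e : g * v ^ p * g⁻¹ = (g * v * g⁻¹) ^ p := (conj_pow).symm
    rw [e]
    exact pow_mem_agemo (hg v hv)
  | one => simp
  | mul x y _ _ hx hy =>
    have e : g * (x * y) * g⁻¹ = (g * x * g⁻¹) * (g * y * g⁻¹) := by group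
    rw [e]
    exact mul_mem hx hy
  | inv x _ hx =>
    have e : g * x⁻¹ * g⁻¹ = (g * x * g⁻¹)⁻¹ := by group
    rw [e]
    exact inv_mem hx

theorem le_normalizer_inf {T C : Subgroup G} (hTC : T ≤ normalizer (C : Set G)) :
    T ≤ normalizer ((T ⊓ C : Subgroup G) : Set G) := by
  intro t ht
  refine mem_normalizer_iff.2 fun y => ⟨fun hy => ?_, fun hy => ?_⟩
  · obtain ⟨h1, h2⟩ := mem_inf.1 hy
    exact mem_inf.2 ⟨T.mul_mem (T.mul_mem ht h1) (T.inv_mem ht), (mem_normalizer_iff.1 (hTC ht) y).1 h2⟩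
  · obtain ⟨h1, h2⟩ := mem_inf.1 hy
    have e : t⁻¹ * (t * y * t⁻¹) * t⁻¹⁻¹ = y := by group
    rw [← e]
    exact mem_inf.2 ⟨T.mul_mem (T.mul_mem (T.inv_mem ht) h1) (T.inv_mem (T.inv_mem ht)),
      (mem_normalizer_iff.1 (hTC (T.inv_mem ht)) _).1 h2⟩

/-- The `M`-normal closure of `Z(T)`. -/
def VV (M T : Subgroup G) : Subgroup G :=
  closure {x | ∃ g ∈ M, ∃ w ∈ T ⊓ centralizer (T : Set G), x = g * w * g⁻¹}

theorem conj_mem_VV {M T : Subgroup G} {g : G} (hg : g ∈ M) {y : G} (hy : y ∈ VV M T) :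
    g * y * g⁻¹ ∈ VV M T := by
  induction hy using Subgroup.closure_induction with
  | mem x hx =>
    obtain ⟨h, hh, w, hw, rfl⟩ := hx
    refine subset_closure ⟨g * h, mul_mem hg hh, w, hw, ?_⟩
    group
  | one => simp
  | mul x y _ _ hx hy =>
    have e : g * (x * y) * g⁻¹ = (g * x * g⁻¹) * (g * y * g⁻¹) := by group
    rw [e]
    exact mul_mem hx hy
  | inv x _ hx =>
    have e : g * x⁻¹ * g⁻¹ = (g * x * g⁻¹)⁻¹ := by group
    rw [e]
    exact inv_mem hx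

theorem center_le_VV (M T : Subgroup G) : T ⊓ centralizer (T : Set G) ≤ VV M T := by
  intro w hw
  exact subset_closure ⟨1, one_mem _, w, hw, by group⟩

theorem VV_le {M T Q : Subgroup G} (hQT : Q ≤ T) (hZQ : T ⊓ centralizer (T : Set G) ≤ Q)
    (hQn : M ≤ normalizer (Q : Set G)) : VV M T ≤ Q ⊓ centralizer (Q : Set G) := by
  rw [VV, closure_le]
  rintro _ ⟨g, hg, w, hw, rfl⟩
  refine ⟨(mem_normalizer_iff.1 (hQn hg) w).1 (hZQ hw), mem_centralizer_iff.2 fun q hq => ?_⟩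
  have h1 : g⁻¹ * q * g⁻¹⁻¹ ∈ Q := (mem_normalizer_iff.1 (inv_mem (hQn hg)) q).1 hq
  have h2 : (g⁻¹ * q * g⁻¹⁻¹) * w = w * (g⁻¹ * q * g⁻¹⁻¹) :=
    mem_centralizer_iff.1 hw.2 _ (hQT h1)
  calc q * (g * w * g⁻¹) = g * ((g⁻¹ * q * g⁻¹⁻¹) * w) * g⁻¹ := by group
    _ = g * (w * (g⁻¹ * q * g⁻¹⁻¹)) * g⁻¹ := by rw [h2]
    _ = g * w * g⁻¹ * q := by group

/-- The elements acting trivially modulo the `p`-th powers. -/
def RR (p : ℕ) (M V : Subgroup G) (hn : ∀ g ∈ M, ∀ v ∈ V, g * v * g⁻¹ ∈ V) : Subgroup G where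
  carrier := {g | g ∈ M ∧ ∀ v ∈ V, g * v * g⁻¹ * v⁻¹ ∈ agemo p V}
  mul_mem' := by
    rintro x y ⟨hx, hx2⟩ ⟨hy, hy2⟩
    refine ⟨mul_mem hx hy, fun v hv => ?_⟩
    have e : x * y * v * (x * y)⁻¹ * v⁻¹ =
        (x * (y * v * y⁻¹ * v⁻¹) * x⁻¹) * (x * v * x⁻¹ * v⁻¹) := by group
    rw [e]
    exact mul_mem (conj_mem_agemo (hn x hx) (hy2 v hv)) (hx2 v hv)
  one_mem' := ⟨one_mem _, fun v _ => by simp⟩
  inv_mem' := by
    rintro x ⟨hx, hx2⟩
    refine ⟨inv_mem hx, fun v hv => ?_⟩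
    have h1 := hn _ (inv_mem hx) v hv
    have h2 := hx2 _ h1
    have e : x⁻¹ * v * x⁻¹⁻¹ * v⁻¹ = (x * (x⁻¹ * v * x⁻¹⁻¹) * x⁻¹ * (x⁻¹ * v * x⁻¹⁻¹)⁻¹)⁻¹ := by group
    rw [e]
    exact inv_mem h2

theorem conj_mem_RR {M V : Subgroup G}
    {hn : ∀ g ∈ M, ∀ v ∈ V, g * v * g⁻¹ ∈ V} {g r : G} (hg : g ∈ M) (hr : r ∈ RR p M V hn) :
    g * r * g⁻¹ ∈ RR p M V hn := by
  refine ⟨mul_mem (mul_mem hg hr.1) (inv_mem hg), fun v hv => ?_⟩
  have h1 := hn _ (inv_mem hg) v hv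
  have h2 := hr.2 _ h1
  have h3 := conj_mem_agemo (hn g hg) h2
  have e : g * r * g⁻¹ * v * (g * r * g⁻¹)⁻¹ * v⁻¹ =
      g * (r * (g⁻¹ * v * g⁻¹⁻¹) * r⁻¹ * (g⁻¹ * v * g⁻¹⁻¹)⁻¹) * g⁻¹ := by group
  rw [e]
  exact h3

section Finite

variable [Finite G] [Fact p.Prime]

/-- `T` Sylow, normalizing `C`: the index of `T ⊓ C` in `C` is prime to `p`. -/
theorem not_dvd_index_subgroupOf (T : Sylow p G) {C : Subgroup G}
    (hC : (T : Subgroup G) ≤ normalizer (C : Set G)) :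
    ¬ p ∣ ((T : Subgroup G).subgroupOf C).index := by
  intro hd
  apply T.not_dvd_index
  have h1 := card_sup_mul_card_inf_of_le_normalizer (T : Subgroup G) C hC
  have h2 : Nat.card ((T : Subgroup G).subgroupOf C) = Nat.card ↥((T : Subgroup G) ⊓ C) := by
    have e : ((T : Subgroup G).subgroupOf C).map C.subtype = (T : Subgroup G) ⊓ C :=
      subgroupOf_map_subtype _ _
    rw [← e, Subgroup.card_map_of_injective C.subtype_injective]
  have h3 := Subgroup.card_mul_index ((T : Subgroup G).subgroupOf C)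
  have h4 := Subgroup.card_mul_index (T : Subgroup G)
  have h5 : Nat.card ↥((T : Subgroup G) ⊔ C) ∣ Nat.card G := Subgroup.card_subgroup_dvd_card _
  set a := Nat.card ↥((T : Subgroup G) ⊓ C) with ha
  set i := ((T : Subgroup G).subgroupOf C).index with hi
  have ha0 : 0 < a := Nat.card_pos
  have hT0 : 0 < Nat.card (T : Subgroup G) := Nat.card_pos
  rw [h2] at h3
  have h6 : Nat.card ↥((T : Subgroup G) ⊔ C) = Nat.card (T : Subgroup G) * i := by
    have : Nat.card ↥((T : Subgroup G) ⊔ C) * a = (Nat.card (T : Subgroup G) * i) * a := by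
      rw [h1, ← h3]
      ring
    exact Nat.eq_of_mul_eq_mul_right ha0 this
  rw [h6, ← h4] at h5
  have h7 : i ∣ (T : Subgroup G).index := Nat.dvd_of_mul_dvd_mul_left hT0 h5
  exact hd.trans h7

/-- A `p`-subgroup of a subgroup `C` normalized by the Sylow subgroup `T` is conjugate into `T` by an element of `C`. -/
theorem exists_conj_le (T : Sylow p G) {C : Subgroup G} (hC : (T : Subgroup G) ≤ normalizer (C : Set G))
    {X : Subgroup G} (hX : IsPGroup p X) (hXC : X ≤ C) : ∃ c ∈ C, ∀ x ∈ X, c * x * c⁻¹ ∈ (T : Subgroup G) := by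
  have hp1 : IsPGroup p ((T : Subgroup G).subgroupOf C) := T.2.comap_subtype
  let U : Sylow p C := hp1.toSylow (not_dvd_index_subgroupOf T hC)
  have hp' : IsPGroup p (X.subgroupOf C) := hX.comap_subtype
  obtain ⟨W, hW⟩ := hp'.exists_le_sylow
  obtain ⟨c, hc⟩ := MulAction.exists_smul_eq C W U
  refine ⟨c, c.2, fun x hx => ?_⟩
  have h1 : (⟨x, hXC hx⟩ : C) ∈ (W : Subgroup C) := hW hx
  have h3 : (c * ⟨x, hXC hx⟩ * c⁻¹ : C) ∈ (U : Subgroup C) := by
    rw [← hc, Cfsg.Agent.Lib.Basic.SylowUtil.coe_smul_sylow, Cfsg.Agent.Lib.Basic.Conj.mem_conj_smul_iff]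
    simpa [mul_assoc] using h1
  exact h3

/-- Elements of `V` are, modulo `p`-th powers, fixed by `R`: for the elements of `Z(T)`. -/
theorem center_fixed_mod (T : Sylow p G) {M : Subgroup G} (hTM : (T : Subgroup G) ≤ M)
    (hab : ∀ x ∈ VV M T, ∀ y ∈ VV M T, x * y = y * x) {w : G}
    (hw : w ∈ (T : Subgroup G) ⊓ centralizer ((T : Subgroup G) : Set G)) :
    ∃ c ∈ VV M T, ∃ y ∈ VV M T,
      (∀ r ∈ RR p M (VV M T) (fun _ hg _ hv => conj_mem_VV hg hv), r * c * r⁻¹ = c) ∧ w = c * y ^ p := by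
  set V := VV M T with hV
  have hn : ∀ g ∈ M, ∀ v ∈ V, g * v * g⁻¹ ∈ V := fun _ hg _ hv => conj_mem_VV hg hv
  set R := RR p M V hn with hR
  letI instA : CommGroup V := { (inferInstance : Group V) with
    mul_comm := fun a b => Subtype.ext (hab _ a.2 _ b.2) }
  have hmk : ∀ (r : R) (a b : V), (⟨(r : G) * ((a * b : V) : G) * (r : G)⁻¹, hn _ r.2.1 _ (a * b).2⟩ : V) =
      ⟨(r : G) * (a : G) * (r : G)⁻¹, hn _ r.2.1 _ a.2⟩ * ⟨(r : G) * (b : G) * (r : G)⁻¹, hn _ r.2.1 _ b.2⟩ := by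
    intro r a b
    apply Subtype.ext
    show (r : G) * ((a : G) * b) * (r : G)⁻¹ = (r : G) * (a : G) * (r : G)⁻¹ * ((r : G) * (b : G) * (r : G)⁻¹)
    group
  let act : R → V →* V := fun r => MonoidHom.mk' (fun a => ⟨(r : G) * (a : G) * (r : G)⁻¹, hn _ r.2.1 _ a.2⟩) (hmk r)
  have hact : ∀ (r : R) (a : V), ((act r a : V) : G) = (r : G) * (a : G) * (r : G)⁻¹ := fun _ _ => rfl
  have hTn : (T : Subgroup G) ≤ normalizer ((R : Subgroup G) : Set G) := by
    intro t ht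
    refine mem_normalizer_iff.2 fun r => ⟨fun hr => conj_mem_RR (hTM ht) hr, fun hr => ?_⟩
    have := conj_mem_RR (inv_mem (hTM ht)) hr
    simpa [mul_assoc] using this
  have hwV : w ∈ V := center_le_VV M _ hw
  obtain ⟨c, y, hc, he⟩ := exists_fixed_of_norm (p := p) (A := V) (R := R) act
    (fun g h a => Subtype.ext (by
      show (g : G) * (h : G) * (a : G) * ((g : G) * (h : G))⁻¹ = (g : G) * ((h : G) * (a : G) * (h : G)⁻¹) * (g : G)⁻¹
      group))
    ((T : Subgroup G).subgroupOf R) (not_dvd_index_subgroupOf T hTn)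
    (fun r a => by
      obtain ⟨v, hv, hve⟩ := exists_pow_of_mem_agemo hab (r.2.2 a a.2)
      refine ⟨⟨v, hv⟩, Subtype.ext ?_⟩
      rw [hact]
      have hc : (v ^ p) * (a : G) = (a : G) * v ^ p := hab _ (pow_mem hv p) _ a.2
      show (r : G) * (a : G) * (r : G)⁻¹ = (a : G) * v ^ p
      rw [← hc, ← hve]
      group)
    (w := ⟨w, hwV⟩)
    (fun h hh => Subtype.ext (by
      rw [hact]
      have h1 : (h : G) * w = w * (h : G) := mem_centralizer_iff.1 hw.2 _ hh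
      show (h : G) * w * (h : G)⁻¹ = w
      rw [h1]
      group))
  refine ⟨c, c.2, y, y.2, fun r hr => ?_, ?_⟩
  · exact congrArg Subtype.val (hc ⟨r, hr⟩)
  · exact congrArg Subtype.val he

/-- The same for all elements of `V`. -/
theorem VV_fixed_mod (T : Sylow p G) {M : Subgroup G} (hTM : (T : Subgroup G) ≤ M)
    (hab : ∀ x ∈ VV M T, ∀ y ∈ VV M T, x * y = y * x) {v : G} (hv : v ∈ VV M T) :
    ∃ c ∈ VV M T, ∃ y ∈ VV M T,
      (∀ r ∈ RR p M (VV M T) (fun _ hg _ hv => conj_mem_VV hg hv), r * c * r⁻¹ = c) ∧ v = c * y ^ p := by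
  have hv' := hv
  rw [VV] at hv'
  induction hv' using Subgroup.closure_induction with
  | mem x hx =>
    obtain ⟨g, hg, w, hw, rfl⟩ := hx
    obtain ⟨c, hc, y, hy, hfix, rfl⟩ := center_fixed_mod (p := p) T hTM hab hw
    refine ⟨g * c * g⁻¹, conj_mem_VV hg hc, g * y * g⁻¹, conj_mem_VV hg hy, fun r hr => ?_, ?_⟩
    · have h1 : g⁻¹ * r * g⁻¹⁻¹ ∈ RR p M (VV M T) (fun _ hg _ hv => conj_mem_VV hg hv) :=
        conj_mem_RR (inv_mem hg) hr
      have h2 := hfix _ h1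
      calc r * (g * c * g⁻¹) * r⁻¹ = g * ((g⁻¹ * r * g⁻¹⁻¹) * c * (g⁻¹ * r * g⁻¹⁻¹)⁻¹) * g⁻¹ := by group
        _ = g * c * g⁻¹ := by rw [h2]
    · rw [conj_pow]
      group
  | one => exact ⟨1, one_mem _, 1, one_mem _, fun r _ => by group, by simp⟩
  | mul x y hx hy ihx ihy =>
    have hx' : x ∈ VV M T := hx
    have hy' : y ∈ VV M T := hy
    obtain ⟨c₁, hc₁, y₁, hy₁, hf₁, rfl⟩ := ihx hx'
    obtain ⟨c₂, hc₂, y₂, hy₂, hf₂, rfl⟩ := ihy hy'
    refine ⟨c₁ * c₂, mul_mem hc₁ hc₂, y₁ * y₂, mul_mem hy₁ hy₂, fun r hr => ?_, ?_⟩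
    · have e : r * (c₁ * c₂) * r⁻¹ = (r * c₁ * r⁻¹) * (r * c₂ * r⁻¹) := by group
      rw [e, hf₁ r hr, hf₂ r hr]
    · have hc : Commute y₁ y₂ := hab _ hy₁ _ hy₂
      rw [hc.mul_pow]
      have h1 : y₁ ^ p * c₂ = c₂ * y₁ ^ p := hab _ (pow_mem hy₁ p) _ hc₂
      calc c₁ * y₁ ^ p * (c₂ * y₂ ^ p) = c₁ * (y₁ ^ p * c₂) * y₂ ^ p := by group
        _ = c₁ * (c₂ * y₁ ^ p) * y₂ ^ p := by rw [h1]
        _ = _ := by group
  | inv x hx ih =>
    have hx' : x ∈ VV M T := hx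
    obtain ⟨c, hc, y, hy, hf, rfl⟩ := ih hx'
    refine ⟨c⁻¹, inv_mem hc, y⁻¹, inv_mem hy, fun r hr => ?_, ?_⟩
    · have e : r * c⁻¹ * r⁻¹ = (r * c * r⁻¹)⁻¹ := by group
      rw [e, hf r hr]
    · rw [inv_pow, mul_inv_rev, hab _ (pow_mem hy p |> inv_mem) _ (inv_mem hc)]
      

/-- Nakayama: `R` centralizes `V`. -/
theorem RR_fix (T : Sylow p G) {M : Subgroup G} (hTM : (T : Subgroup G) ≤ M) (hVT : VV M T ≤ T)
    (hab : ∀ x ∈ VV M T, ∀ y ∈ VV M T, x * y = y * x) {r : G}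
    (hr : r ∈ RR p M (VV M T) (fun _ hg _ hv => conj_mem_VV hg hv)) {v : G} (hv : v ∈ VV M T) :
    r * v * r⁻¹ = v := by
  have key : ∀ (k : ℕ) (v : G), v ∈ VV M T → ∃ c ∈ VV M T, ∃ y ∈ VV M T,
      (∀ r ∈ RR p M (VV M T) (fun _ hg _ hv => conj_mem_VV hg hv), r * c * r⁻¹ = c) ∧ v = c * y ^ (p ^ k) := by
    intro k
    induction k with
    | zero =>
      intro v hv
      exact ⟨1, one_mem _, v, hv, fun r _ => by group, by simp⟩
    | succ k ih =>
      intro v hv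
      obtain ⟨c, hc, y, hy, hf, rfl⟩ := ih v hv
      obtain ⟨c', hc', y', hy', hf', rfl⟩ := VV_fixed_mod (p := p) T hTM hab hy
      refine ⟨c * c' ^ (p ^ k), mul_mem hc (pow_mem hc' _), y', hy', fun r hr => ?_, ?_⟩
      · have e : r * (c * c' ^ (p ^ k)) * r⁻¹ = (r * c * r⁻¹) * (r * c' * r⁻¹) ^ (p ^ k) := by
          rw [conj_pow]
          group
        rw [e, hf r hr, hf' r hr]
      · have hcc : Commute c' (y' ^ p) := hab _ hc' _ (pow_mem hy' p)
        rw [hcc.mul_pow, ← pow_mul, pow_succ, mul_assoc, mul_comm p]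
  obtain ⟨n, hn⟩ := IsPGroup.iff_card.1 T.2
  obtain ⟨c, hc, y, hy, hf, rfl⟩ := key n v hv
  have hy1 : y ^ (p ^ n) = 1 := by
    have h1 : (⟨y, hVT hy⟩ : (T : Subgroup G)) ^ (p ^ n) = 1 := by
      rw [← hn]
      exact pow_card_eq_one'
    exact congrArg Subtype.val h1
  rw [hy1, mul_one]
  exact hf r hr

/-- **Lemma R**: an element of `T` acting quadratically on `V` centralizes the `p`-th powers of `V`. -/
theorem fix_pow_of_quadratic (T : Sylow p G) {M : Subgroup G} (hTM : (T : Subgroup G) ≤ M) (hVT : VV M T ≤ T)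
    (hab : ∀ x ∈ VV M T, ∀ y ∈ VV M T, x * y = y * x) {u : G} (hu : u ∈ (T : Subgroup G))
    (hq : ∀ v ∈ VV M T, u * (u * v * u⁻¹ * v⁻¹) * u⁻¹ = u * v * u⁻¹ * v⁻¹) {v : G} (hv : v ∈ VV M T) :
    u * v ^ p * u⁻¹ = v ^ p := by
  have huM := hTM hu
  have hδV : ∀ v ∈ VV M T, u * v * u⁻¹ * v⁻¹ ∈ VV M T := fun v hv =>
    mul_mem (conj_mem_VV huM hv) (inv_mem hv)
  -- powers of `u`
  have hpow : ∀ (k : ℕ) (v : G), v ∈ VV M T → u ^ k * v * (u ^ k)⁻¹ = (u * v * u⁻¹ * v⁻¹) ^ k * v := by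
    intro k v hv
    induction k with
    | zero => simp
    | succ k ih =>
      have hδ := hq v hv
      set δ := u * v * u⁻¹ * v⁻¹ with hδdef
      have h1 : u ^ (k + 1) * v * (u ^ (k + 1))⁻¹ = u * (u ^ k * v * (u ^ k)⁻¹) * u⁻¹ := by
        rw [pow_succ']
        group
      rw [h1, ih]
      have h2 : u * (δ ^ k * v) * u⁻¹ = (u * δ * u⁻¹) ^ k * (u * v * u⁻¹) := by
        rw [conj_pow]
        group
      have h3 : u * v * u⁻¹ = δ * v := by
        rw [hδdef]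
        group
      rw [h2, hδ, h3, pow_succ]
      group
  have hR : u ^ p ∈ RR p M (VV M T) (fun _ hg _ hv => conj_mem_VV hg hv) := by
    refine ⟨pow_mem huM p, fun v hv => ?_⟩
    rw [hpow p v hv]
    have e : (u * v * u⁻¹ * v⁻¹) ^ p * v * v⁻¹ = (u * v * u⁻¹ * v⁻¹) ^ p := by group
    rw [e]
    exact pow_mem_agemo (hδV v hv)
  have h0 := RR_fix T hTM hVT hab hR hv
  rw [hpow p v hv] at h0
  have h1 : (u * v * u⁻¹ * v⁻¹) ^ p = 1 := mul_eq_right.1 h0
  have h2 : u * v * u⁻¹ = (u * v * u⁻¹ * v⁻¹) * v := by group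
  have hc : Commute (u * v * u⁻¹ * v⁻¹) v := hab _ (hδV v hv) _ hv
  rw [← conj_pow, h2, hc.mul_pow, h1, one_mul]

/-- Replacement: an abelian subgroup of maximal order not normalized by an abelian `V` can be replaced. -/
theorem exists_replacement {T V A : Subgroup G} (hT : IsPGroup p T) (hVT : V ≤ T) (hVn : A ≤ normalizer (V : Set G))
    (hVab : ∀ x ∈ V, ∀ y ∈ V, x * y = y * x) (hA : A ∈ AA 0 T) (hnot : ¬ V ≤ normalizer (A : Set G)) :
    ∃ A' ∈ AA 0 T, A ⊓ V < A' ⊓ V ∧ A' ⊓ V < V := by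
  obtain ⟨b, hb, hbN, h1, h2⟩ := exists_b_rel (hT.to_le (sup_le hA.1 hVT)) hVn hnot
  have hBA : ⁅V, V⁆ ≤ A := by
    have : ⁅V, V⁆ = ⊥ := by
      rw [Subgroup.commutator_eq_bot_iff_le_centralizer]
      intro y hy
      rw [Subgroup.mem_centralizer_iff]
      intro z hz
      exact hVab z hz y hy
    rw [this]
    exact bot_le
  have htwo : ∀ x ∈ V, ∀ y ∈ V, ⁅x, y⁆ ^ 2 = 1 → ⁅x, y⁆ = 1 := by
    intro x hx y hy _
    rw [commutatorElement_eq_one_iff_mul_comm]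
    exact hVab x hx y hy
  have R := ReplData.mk' (isMulCommutative_iff'.mpr hA.2.1.1) h1 h2 hb hVn hBA htwo
  obtain ⟨a, ha, hab⟩ := exists_conj_notMem hbN
  refine ⟨Astar A b, AA_repl (Or.inl rfl) hA R fun x hx => ?_, R.inf_lt ha hab, R.inf_lt_B hbN⟩
  exact mul_mem (mul_mem (inv_mem (hVT hb)) hx) (hVT hb)

/-- **The factorization lemma.** -/
theorem exists_factorization (T : Sylow p G) {M C : Subgroup G} (hTM : (T : Subgroup G) ≤ M) (hCM : C ≤ M)
    (hCn : M ≤ normalizer (C : Set G)) {g : G} (hg : g ∈ M) {P : Subgroup G} (hPT : P ≤ T)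
    (hgP : ∀ x ∈ P, g * x * g⁻¹ ∈ (T : Subgroup G)) :
    ∃ c ∈ C, ∃ n ∈ M, n ∈ normalizer (((T : Subgroup G) ⊓ C : Subgroup G) : Set G) ∧ g = c * n ∧
      ∀ x ∈ P, n * x * n⁻¹ ∈ (T : Subgroup G) := by
  set K : Subgroup G := (T : Subgroup G) ⊓ C with hK
  have hTC : (T : Subgroup G) ≤ normalizer (C : Set G) := hTM.trans hCn
  have hTK : (T : Subgroup G) ≤ normalizer (K : Set G) := le_normalizer_inf hTC
  -- first step: conjugate `gKg⁻¹` back to `K`
  have hXp : IsPGroup p (K.map (MulAut.conj g).toMonoidHom) := (T.2.to_le inf_le_left).map _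
  have hXC : K.map (MulAut.conj g).toMonoidHom ≤ C := by
    rintro _ ⟨x, hx, rfl⟩
    exact (mem_normalizer_iff.1 (hCn hg) x).1 (mem_inf.1 hx).2
  obtain ⟨c, hc, hcX⟩ := exists_conj_le T hTC hXp hXC
  have hn1K : ∀ x ∈ K, (c * g) * x * (c * g)⁻¹ ∈ K := by
    intro x hx
    have h1 := hcX _ (⟨x, hx, rfl⟩ : g * x * g⁻¹ ∈ K.map (MulAut.conj g).toMonoidHom)
    have h2 := hXC (⟨x, hx, rfl⟩ : g * x * g⁻¹ ∈ K.map (MulAut.conj g).toMonoidHom)
    have e : (c * g) * x * (c * g)⁻¹ = c * (g * x * g⁻¹) * c⁻¹ := by group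
    rw [e]
    exact mem_inf.2 ⟨h1, mul_mem (mul_mem hc h2) (inv_mem hc)⟩
  set n := c * g with hn
  have hnK : n ∈ normalizer (K : Set G) := mem_normalizer_of_conj_mem hn1K
  have hnM : n ∈ M := mul_mem (hCM hc) hg
  -- second step
  set H : Subgroup G := ((T : Subgroup G) ⊔ C) ⊓ normalizer (K : Set G) with hH
  have hTH : (T : Subgroup G) ≤ H := le_inf le_sup_left hTK
  have hHn : (T : Subgroup G) ≤ normalizer (H : Set G) := hTH.trans Subgroup.le_normalizer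
  have hP'p : IsPGroup p (P.map (MulAut.conj n).toMonoidHom) := (T.2.to_le hPT).map _
  have hP'H : P.map (MulAut.conj n).toMonoidHom ≤ H := by
    rintro _ ⟨x, hx, rfl⟩
    refine mem_inf.2 ⟨?_, mul_mem (mul_mem hnK (hTK (hPT hx))) (inv_mem hnK)⟩
    have e : n * x * n⁻¹ = c * (g * x * g⁻¹) * c⁻¹ := by
      rw [hn]
      group
    change n * x * n⁻¹ ∈ _
    rw [e]
    have hc' : c ∈ (T : Subgroup G) ⊔ C := (le_sup_right : C ≤ _) hc
    exact mul_mem (mul_mem hc' ((le_sup_left : (T : Subgroup G) ≤ _) (hgP x hx))) (inv_mem hc')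
  obtain ⟨y, hy, hyP⟩ := exists_conj_le T hHn hP'p hP'H
  have hyT := (mem_inf.1 hy).1
  rw [← SetLike.mem_coe, Subgroup.coe_mul_of_left_le_normalizer_right _ _ hTC, Set.mem_mul] at hyT
  obtain ⟨t, ht, c₀, hc₀, hty⟩ := hyT
  have ht' : t ∈ (T : Subgroup G) := ht
  have hc₀e : c₀ = t⁻¹ * y := by
    rw [← hty]
    group
  have hc₀K : c₀ ∈ normalizer (K : Set G) := by
    rw [hc₀e]
    exact mul_mem (inv_mem (hTK ht')) (mem_inf.1 hy).2
  refine ⟨c⁻¹ * c₀⁻¹, mul_mem (inv_mem hc) (inv_mem hc₀), c₀ * n, mul_mem (hCM hc₀) hnM, mul_mem hc₀K hnK, ?_, ?_⟩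
  · rw [hn]
    group
  · intro x hx
    have h1 := hyP (n * x * n⁻¹) ⟨x, hx, rfl⟩
    have e : (c₀ * n) * x * (c₀ * n)⁻¹ = t⁻¹ * (y * (n * x * n⁻¹) * y⁻¹) * t := by
      rw [← hty]
      group
    rw [e]
    exact mul_mem (mul_mem (inv_mem ht') h1) ht'

/-- **The generation theorem at group level.** -/
theorem gen_local (T : Sylow p G) {Q : Subgroup G} (hQT : Q ≤ T)
    (hZQ : (T : Subgroup G) ⊓ centralizer ((T : Subgroup G) : Set G) ≤ Q) (Good : G → Subgroup G → Prop)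
    (hcomp : ∀ (g₁ g₂ : G) (P : Subgroup G), P ≤ T → (∀ x ∈ P, g₁ * x * g₁⁻¹ ∈ (T : Subgroup G)) →
      (∀ x ∈ P, g₂ * (g₁ * x * g₁⁻¹) * g₂⁻¹ ∈ (T : Subgroup G)) → Good g₁ P →
        Good g₂ (P.map (MulAut.conj g₁).toMonoidHom) → Good (g₂ * g₁) P)
    (h1 : ∀ (g : G) (P : Subgroup G), g ∈ centralizer ((agemo p ((T : Subgroup G) ⊓ centralizer ((T : Subgroup G) : Set G)) : Subgroup G) : Set G) →
      P ≤ T → (∀ x ∈ P, g * x * g⁻¹ ∈ (T : Subgroup G)) → Good g P)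
    (h2 : ∀ (g : G) (P : Subgroup G), g ∈ normalizer ((JJ 0 (T : Subgroup G) : Subgroup G) : Set G) →
      P ≤ T → (∀ x ∈ P, g * x * g⁻¹ ∈ (T : Subgroup G)) → Good g P) :
    ∀ M : Subgroup G, (T : Subgroup G) ≤ M → M ≤ normalizer (Q : Set G) → ∀ g ∈ M, ∀ P : Subgroup G,
      P ≤ T → (∀ x ∈ P, g * x * g⁻¹ ∈ (T : Subgroup G)) → Good g P := by
  suffices H : ∀ (m : ℕ) (M : Subgroup G), Nat.card M = m → (T : Subgroup G) ≤ M → M ≤ normalizer (Q : Set G) →
      ∀ g ∈ M, ∀ P : Subgroup G, P ≤ T → (∀ x ∈ P, g * x * g⁻¹ ∈ (T : Subgroup G)) → Good g P from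
    fun M => H _ M rfl
  intro m
  induction m using Nat.strong_induction_on with
  | _ m ih =>
  intro M hMc hTM hMQ g hg P hPT hgP
  set V := VV M T with hV
  have hVle : V ≤ Q ⊓ centralizer (Q : Set G) := VV_le hQT hZQ hMQ
  have hVT : V ≤ T := hVle.trans (inf_le_left.trans hQT)
  have hab : ∀ x ∈ V, ∀ y ∈ V, x * y = y * x := fun x hx y hy =>
    (mem_centralizer_iff.1 (hVle hy).2 x (hVle hx).1)
  have hVn : ∀ g ∈ M, ∀ v ∈ V, g * v * g⁻¹ ∈ V := fun _ hg _ hv => conj_mem_VV hg hv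
  set V2 := agemo p V with hV2
  set C₀ : Subgroup G := M ⊓ centralizer (V2 : Set G) with hC₀
  have hC₀n : M ≤ normalizer (C₀ : Set G) := by
    have key : ∀ g ∈ M, ∀ x ∈ C₀, g * x * g⁻¹ ∈ C₀ := by
      intro g hg x hx
      obtain ⟨hx1, hx2⟩ := mem_inf.1 hx
      refine mem_inf.2 ⟨mul_mem (mul_mem hg hx1) (inv_mem hg), mem_centralizer_iff.2 fun y hy => ?_⟩
      have h3 : g⁻¹ * y * g⁻¹⁻¹ ∈ V2 := conj_mem_agemo (hVn _ (inv_mem hg)) hy
      have h4 := mem_centralizer_iff.1 hx2 _ h3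
      calc y * (g * x * g⁻¹) = g * ((g⁻¹ * y * g⁻¹⁻¹) * x) * g⁻¹ := by group
        _ = g * (x * (g⁻¹ * y * g⁻¹⁻¹)) * g⁻¹ := by rw [h4]
        _ = _ := by group
    intro g hg
    refine mem_normalizer_iff.2 fun x => ⟨key g hg x, fun hx => ?_⟩
    have := key _ (inv_mem hg) _ hx
    simpa [mul_assoc] using this
  set K : Subgroup G := (T : Subgroup G) ⊓ C₀ with hK
  have hTC₀ : (T : Subgroup G) ≤ normalizer (C₀ : Set G) := hTM.trans hC₀n
  obtain ⟨c, hc, n, hnM, hnK, rfl, hnP⟩ := exists_factorization T hTM inf_le_left hC₀n hg hPT hgP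
  -- it suffices to treat `n`
  suffices hn : Good n P by
    refine hcomp n c P hPT hnP ?_ hn ?_
    · intro x hx
      have e : c * (n * x * n⁻¹) * c⁻¹ = (c * n) * x * (c * n)⁻¹ := by group
      rw [e]
      exact hgP x hx
    · refine h1 c _ ?_ ?_ ?_
      · rw [mem_centralizer_iff]
        intro y hy
        have hy2 : y ∈ V2 := by
          have hle : agemo p ((T : Subgroup G) ⊓ centralizer ((T : Subgroup G) : Set G)) ≤ V2 := by
            rw [agemo, closure_le]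
            rintro _ ⟨z, hz, rfl⟩
            exact pow_mem_agemo (center_le_VV M _ hz)
          exact hle hy
        exact mem_centralizer_iff.1 hc.2 y hy2
      · rintro _ ⟨x, hx, rfl⟩
        exact hnP x hx
      · rintro _ ⟨x, hx, rfl⟩
        have e : c * (n * x * n⁻¹) * c⁻¹ = (c * n) * x * (c * n)⁻¹ := by group
        change c * (n * x * n⁻¹) * c⁻¹ ∈ _
        rw [e]
        exact hgP x hx
  by_cases hall : ∀ A ∈ AA 0 (T : Subgroup G), A ≤ centralizer (V2 : Set G)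
  · -- case 1
    have hJK : JJ 0 (T : Subgroup G) ≤ K := by
      refine le_inf (JJ_le 0 _) (le_inf ((JJ_le 0 _).trans hTM) ?_)
      exact sSup_le hall
    have hJ : JJ 0 K = JJ 0 (T : Subgroup G) := JJ_eq_of_le hJK inf_le_left
    have hnJ : n ∈ normalizer ((JJ 0 (T : Subgroup G) : Subgroup G) : Set G) := by
      rw [← hJ]
      exact normalizer_le_normalizer_JJ K hnK
    exact h2 n P hnJ hPT hnP
  · -- case 2
    push Not at hall
    let Bad : Set (Subgroup G) := {A | A ∈ AA 0 (T : Subgroup G) ∧ ¬ A ≤ centralizer (V2 : Set G)}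
    obtain ⟨A₀, hA₀, hA₀'⟩ := hall
    obtain ⟨A, hA, hAmax⟩ := Set.exists_max_image Bad (fun A => Nat.card ↥(A ⊓ V)) (Set.toFinite _) ⟨A₀, hA₀, hA₀'⟩
    have hAV : A ≤ normalizer (V : Set G) := by
      intro a ha
      have haM := hTM (hA.1.1 ha)
      refine mem_normalizer_iff.2 fun v => ⟨hVn a haM v, fun hv => ?_⟩
      have := hVn _ (inv_mem haM) _ hv
      simpa [mul_assoc] using this
    -- `V` does not normalize `A`
    have hnot : ¬ V ≤ normalizer (A : Set G) := by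
      intro hle
      apply hA.2
      have hfix : ∀ a ∈ A, ∀ v ∈ V, a * v ^ p * a⁻¹ = v ^ p := by
        intro a ha v hv
        refine fix_pow_of_quadratic T hTM hVT hab (hA.1.1 ha) (fun v hv => ?_) hv
        have h3 : a * v * a⁻¹ * v⁻¹ ∈ A := by
          have e : a * v * a⁻¹ * v⁻¹ = a * (v * a⁻¹ * v⁻¹) := by group
          rw [e]
          exact mul_mem ha ((mem_normalizer_iff.1 (hle hv) _).1 (inv_mem ha))
        have h4 := hA.1.2.1.1 a ha _ h3
        rw [h4]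
        group
      intro a ha
      rw [mem_centralizer_iff]
      intro y hy
      obtain ⟨v, hv, rfl⟩ := exists_pow_of_mem_agemo hab hy
      exact (mul_inv_eq_iff_eq_mul.1 (hfix a ha v hv)).symm
    obtain ⟨A', hA', hlt1, hlt2⟩ := exists_replacement T.2 hVT hAV hab hA.1 hnot
    have hA'C : A' ≤ centralizer (V2 : Set G) := by
      by_contra hcon
      have := hAmax A' ⟨hA', hcon⟩
      exact absurd (card_lt_of_lt hlt1) (not_lt.2 this)
    have hA'K : A' ≤ K := le_inf hA'.1 (le_inf (hA'.1.trans hTM) hA'C)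
    have hKT : K ≤ T := inf_le_left
    have hA'AA : A' ∈ AA 0 K := ⟨hA'K, hA'.2.1, fun W hW hW2 => hA'.2.2 W (hW.trans hKT) hW2⟩
    have hA'nc : ¬ A' ≤ centralizer (V : Set G) := by
      intro hle
      have : V ≤ A' := by
        intro v hv
        refine mem_of_comm hA' (hVT hv) (fun u hu => ?_) (pow_zero v)
        exact mem_centralizer_iff.1 (hle hu) v hv
      have h5 : A' ⊓ V = V := inf_eq_right.2 this
      rw [h5] at hlt2
      exact lt_irrefl _ hlt2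
    set L₂ : Subgroup G := M ⊓ normalizer ((JJ 0 K : Subgroup G) : Set G) with hL₂
    have hTK : (T : Subgroup G) ≤ normalizer (K : Set G) := le_normalizer_inf hTC₀
    have hTL₂ : (T : Subgroup G) ≤ L₂ := le_inf hTM (hTK.trans (normalizer_le_normalizer_JJ K))
    have hnL₂ : n ∈ L₂ := ⟨hnM, normalizer_le_normalizer_JJ K hnK⟩
    have hL₂lt : L₂ < M := by
      refine lt_of_le_of_ne inf_le_left fun he => ?_
      apply hA'nc
      have hMJ : M ≤ normalizer ((JJ 0 K : Subgroup G) : Set G) := by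
        rw [← he]
        exact inf_le_right
      refine (AA_le_JJ hA'AA).trans ?_
      -- `J(K)` centralizes `V`
      rw [hV, VV, Subgroup.le_centralizer_iff, closure_le]
      rintro _ ⟨g, hg, w, hw, rfl⟩
      rw [SetLike.mem_coe, mem_centralizer_iff]
      intro x hx
      have h3 : g⁻¹ * x * g⁻¹⁻¹ ∈ JJ 0 K := (mem_normalizer_iff.1 (hMJ (inv_mem hg)) x).1 hx
      have h4 : g⁻¹ * x * g⁻¹⁻¹ ∈ (T : Subgroup G) := (JJ_le 0 K).trans hKT h3
      have h5 := mem_centralizer_iff.1 hw.2 _ h4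
      calc x * (g * w * g⁻¹) = g * ((g⁻¹ * x * g⁻¹⁻¹) * w) * g⁻¹ := by group
        _ = g * (w * (g⁻¹ * x * g⁻¹⁻¹)) * g⁻¹ := by rw [h5]
        _ = _ := by group
    exact ih _ (hMc ▸ card_lt_of_lt hL₂lt) L₂ rfl hTL₂ (inf_le_left.trans hMQ) n hnL₂ P hPT hnP

end Finite

end Cfsg.Agent.Lib.Fusion.GT.GenLocal
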