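/-
The generation theorem for saturated fusion systems: `F = ⟨C_F(℧¹ Z(S)), N_F(J(S))⟩`.
-/
import Mathlib
import Cfsg.Agent.Lib.Fusion.GT.GenLocal
import Cfsg.Agent.Lib.Fusion.GT.WeakCenter
import Cfsg.Agent.Lib.Fusion.CenterControl
import Cfsg.Agent.Lib.Fusion.GlaubermanMain
import Cfsg.Agent.Lib.Fusion.Embed

set_option autoImplicit false
set_option linter.style.haveILetI false

namespace Cfsg.Agent.Lib.Fusion.GT.GenFusion

open Cfsg Cfsg.FusionSystem Cfsg.Agent.Lib.Fusion.Basic Cfsg.Agent.Lib.Fusion.Saturated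
  Cfsg.Agent.Lib.Fusion.Saturated2 Cfsg.Agent.Lib.Fusion.ModelLocal Cfsg.Agent.Lib.Fusion.LocalSystems
  Cfsg.Agent.Lib.Fusion.Normal Cfsg.Agent.Lib.Fusion.Model Cfsg.Agent.Lib.PGroup.ZJ
  Cfsg.Agent.Lib.Fusion.GT.WeakChain Cfsg.Agent.Lib.Fusion.GT.WeakCenter Cfsg.Agent.Lib.Fusion.Joins
  Cfsg.Agent.Lib.Fusion.GT.GenLocal Cfsg.Agent.Lib.Fusion.NormalCR

open scoped commutatorElement

universe u

variable {Ω : Type u} [Group Ω] {S S₀ : Subgroup Ω} {F : FusionSystem S} {p : ℕ}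

/-- The hypotheses of the generation theorem. -/
structure Hyp (p : ℕ) (E₀ : FusionSystem S₀) (V₀ : Subgroup Ω) (F : FusionSystem S) : Prop where
  powers : ∀ v ∈ V₀, ∃ w ∈ centralizerIn S S, w ^ p = v
  cen : ∀ {P : Subgroup Ω} {φ : P →* Ω}, φ ∈ F.centralizerHom V₀ P → φ ∈ E₀.Hom P
  nor : ∀ {P : Subgroup Ω} {φ : P →* Ω}, φ ∈ F.normalizerHom (JJ 0 S) P → φ ∈ E₀.Hom P

variable {E₀ : FusionSystem S₀} {V₀ : Subgroup Ω}

theorem Hyp.V_le (hyp : Hyp p E₀ V₀ F) : V₀ ≤ centralizerIn S S := by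
  intro v hv
  obtain ⟨w, hw, rfl⟩ := hyp.powers v hv
  exact pow_mem hw p

/-- A map between subgroups containing `Q` normalizing `Q` is in the normalizer system. -/
theorem normalizerHom_of_map {Q R : Subgroup Ω} (hQR : Q ≤ R) (hRN : R ≤ normalizerIn S Q) {ψ : R →* Ω}
    (hψ : ψ ∈ F.Hom R) (himg : (Q.subgroupOf R).map ψ = Q) : ψ ∈ F.normalizerHom Q R := by
  have hE := normalizerSystem_isNormalizerSystem F Q (hQR.trans (hRN.trans normalizerIn_le))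
  have h1 := mem_normalizerSystem hE hQR hRN hψ himg
  rwa [hE R] at h1

/-- An automorphism of `P` lies in `N_F(P)`. -/
theorem normalizerHom_self {P : Subgroup Ω} {φ : P →* Ω} (hφ : φ ∈ F.Hom P) (hr : φ.range = P) :
    φ ∈ F.normalizerHom P P := by
  refine normalizerHom_of_map le_rfl (le_normalizerIn (source_le hφ)) hφ ?_
  rw [Subgroup.subgroupOf_self, ← MonoidHom.range_eq_map, hr]

/-- An automorphism of `S` lies in `N_F(J(S))`. -/
theorem normalizerHom_JJ_of_aut {φ : S →* Ω} (hφ : φ ∈ F.Hom S) (hr : φ.range = S) :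
    φ ∈ F.normalizerHom (JJ 0 S) S := by
  refine normalizerHom_of_map (JJ_le 0 S) ?_ hφ ?_
  · rw [normalizerIn_JJ]
  · have h1 := map_JJ φ (F.injective_of_mem hφ)
    rw [hr] at h1
    refine Eq.trans ?_ h1
    congr 1
    ext y
    exact mem_JJ_iff y

theorem centralizerHom_mono {S₂ : Subgroup Ω} {F₂ : FusionSystem S₂} (hS₂ : S₂ ≤ S) (hsub : ∀ P, F₂.Hom P ⊆ F.Hom P)
    {Q P : Subgroup Ω} {φ : P →* Ω} (hφ : φ ∈ F₂.centralizerHom Q P) : φ ∈ F.centralizerHom Q P := by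
  obtain ⟨h1, h2, h3, ψ, hψ, h4, h5⟩ := hφ
  exact ⟨hsub _ h1, fun y hy => ⟨hS₂ (h2 hy).1, (h2 hy).2⟩, fun y => ⟨hS₂ (h3 y).1, (h3 y).2⟩, ψ, hsub _ hψ, h4, h5⟩

/-- Elements commuting with `J(T)` lie in `J(T)`. -/
theorem mem_JJ_of_comm {T : Subgroup Ω} [Finite T] {x : Ω} (hxT : x ∈ T) (hc : ∀ u ∈ JJ 0 T, x * u = u * x) :
    x ∈ JJ 0 T := by
  refine (mem_JJ_iff ⟨x, hxT⟩).2 ?_
  obtain ⟨U, hU⟩ := AA_nonempty (G := T) 0 ⊤
  refine AA_le_JJ hU (mem_of_comm hU (Subgroup.mem_top _) (fun u hu => ?_) (pow_zero _))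
  apply Subtype.ext
  exact hc u ((mem_JJ_iff u).2 (AA_le_JJ hU hu))

/-- Elements normalizing two subgroups normalize their join. -/
theorem mem_normalizer_sup' {A B : Subgroup Ω} {g : Ω} (hA : g ∈ Subgroup.normalizer (A : Set Ω))
    (hB : g ∈ Subgroup.normalizer (B : Set Ω)) : g ∈ Subgroup.normalizer ((A ⊔ B : Subgroup Ω) : Set Ω) := by
  have key : ∀ g : Ω, g ∈ Subgroup.normalizer (A : Set Ω) → g ∈ Subgroup.normalizer (B : Set Ω) →
      ∀ x ∈ A ⊔ B, g * x * g⁻¹ ∈ A ⊔ B := by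
    intro g hA hB x hx
    have hle : A ⊔ B ≤ (A ⊔ B).comap (MulAut.conj g).toMonoidHom := by
      refine sup_le ?_ ?_
      · intro y hy
        exact (le_sup_left : A ≤ A ⊔ B) ((Subgroup.mem_normalizer_iff.1 hA y).1 hy)
      · intro y hy
        exact (le_sup_right : B ≤ A ⊔ B) ((Subgroup.mem_normalizer_iff.1 hB y).1 hy)
    exact hle hx
  refine Subgroup.mem_normalizer_iff.2 fun x => ⟨key g hA hB x, fun hx => ?_⟩
  have := key g⁻¹ (inv_mem hA) (inv_mem hB) _ hx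
  simpa [mul_assoc] using this

/-- `N_F(J)` maps extend to `N_F(JQ)`, `Q` normal. -/
theorem normalizerHom_sup [Finite S] {Q J : Subgroup Ω} (hQ : F.IsNormal Q) {P : Subgroup Ω} {φ : P →* Ω}
    (hφ : φ ∈ F.normalizerHom J P) : φ ∈ F.normalizerHom (J ⊔ Q) P := by
  obtain ⟨hφF, hPN, hv, ψ, hψ, hag, himg⟩ := hφ
  have hSQ : S ≤ Subgroup.normalizer (Q : Set Ω) := StronglyClosed.le_normalizer (IsNormal.stronglyClosed hQ)
  have hN : normalizerIn S J ≤ normalizerIn S (J ⊔ Q) := fun y hy =>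
    ⟨hy.1, mem_normalizer_sup' hy.2 (hSQ hy.1)⟩
  obtain ⟨ψ₂, hψ₂, hag₂, himg₂⟩ := hQ.2 _ ψ hψ
  have e : (P ⊔ J) ⊔ Q = P ⊔ (J ⊔ Q) := sup_assoc _ _ _
  obtain ⟨ψ₃, hψ₃, hψ₃e⟩ := exists_hom_of_eq F e ψ₂ hψ₂
  refine ⟨hφF, hPN.trans hN, fun x => hN (hv x), ψ₃, hψ₃, fun x => ?_, ?_⟩
  · rw [← hag x, ← hag₂ (Subgroup.inclusion le_sup_left x)]
    exact hψ₃e _ _ _
  · have hJR : J ≤ P ⊔ (J ⊔ Q) := le_sup_left.trans le_sup_right
    have hQR : Q ≤ P ⊔ (J ⊔ Q) := le_sup_right.trans le_sup_right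
    rw [Subgroup.subgroupOf_sup hJR hQR, Subgroup.map_sup]
    have h1 : (J.subgroupOf (P ⊔ (J ⊔ Q))).map ψ₃ = J := by
      refine Eq.trans ?_ himg
      ext y
      rw [mem_map_subgroupOf, mem_map_subgroupOf]
      constructor
      · rintro ⟨x, hx, rfl⟩
        refine ⟨⟨x, (le_sup_right : J ≤ P ⊔ J) hx⟩, hx, ?_⟩
        rw [← hag₂ (⟨x, (le_sup_right : J ≤ P ⊔ J) hx⟩ : ↥(P ⊔ J))]
        exact (hψ₃e _ _ _).symm
      · rintro ⟨x, hx, rfl⟩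
        refine ⟨⟨x, hJR hx⟩, hx, ?_⟩
        rw [← hag₂ x]
        exact hψ₃e _ _ _
    have h2 : (Q.subgroupOf (P ⊔ (J ⊔ Q))).map ψ₃ = Q := by
      refine Eq.trans ?_ himg₂
      ext y
      rw [mem_map_subgroupOf, mem_map_subgroupOf]
      constructor
      · rintro ⟨x, hx, rfl⟩
        refine ⟨⟨x, (le_sup_right : Q ≤ (P ⊔ J) ⊔ Q) hx⟩, hx, ?_⟩
        exact (hψ₃e _ _ _).symm
      · rintro ⟨x, hx, rfl⟩
        refine ⟨⟨x, hQR hx⟩, hx, ?_⟩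
        exact hψ₃e _ _ _
    rw [h1, h2]

section constrained

variable [Fact p.Prime]

/-- The element `z` of the `c`-argument. -/
theorem exists_central_mod_of [Finite S] (hS : IsPGroup p S) (hSQ : S ≤ Subgroup.normalizer (F.core : Set Ω))
    (hQS : F.core ≤ S) (hnc : ¬ centralizerIn S F.core ≤ F.core) :
    ∃ z ∈ centralizerIn S F.core, z ∉ F.core ∧ ∀ s ∈ S, ⁅z, s⁆ ∈ F.core := by
  have hG : IsPGroup p S := hS
  -- work in `S`
  let V : Subgroup S := F.core.subgroupOf S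
  let W : Subgroup S := (centralizerIn S F.core).subgroupOf S
  have hVn : ∀ s ∈ (⊤ : Subgroup S), ∀ v ∈ V, s * v * s⁻¹ ∈ V := fun s _ v hv =>
    (Subgroup.mem_normalizer_iff.1 (hSQ s.2) _).1 hv
  have hWn : ∀ s ∈ (⊤ : Subgroup S), ∀ w ∈ W, s * w * s⁻¹ ∈ W := fun s _ w hw => by
    have key := Cfsg.Agent.Lib.Fusion.CenterControl.le_normalizer_centralizerIn hSQ s.2
    exact (Subgroup.mem_normalizer_iff.1 key _).1 hw
  have hVW : ¬ W ≤ V := by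
    intro h
    apply hnc
    intro c hc
    have := h (show (⟨c, hc.1⟩ : S) ∈ W from hc)
    exact this
  have hS' : IsPGroup p (⊤ : Subgroup S) := hS.to_subgroup _
  obtain ⟨z, hzW, hzV, hzs⟩ := exists_central_mod hS' hVn hWn le_top hVW
  refine ⟨z, hzW, hzV, fun s hs => ?_⟩
  have := hzs ⟨s, hs⟩ (Subgroup.mem_top _)
  exact this

/-- The core is preserved. -/
theorem exists_preimage_core [Finite S] {Q R : Subgroup Ω} (hQ : F.IsNormal Q) {ρ : R →* Ω} (hρ : ρ ∈ F.Hom R)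
    (hQR : Q ≤ R) {q : Ω} (hq : q ∈ Q) : ∃ x : R, (x : Ω) ∈ Q ∧ ρ x = q := by
  obtain ⟨ψ, hψ, hag, himg⟩ := hQ.2 R ρ hρ
  obtain ⟨x, hx, hxe⟩ := himg.ge hq
  have hxR : (x : Ω) ∈ R := hQR hx
  refine ⟨⟨x, hxR⟩, hx, ?_⟩
  rw [← hag ⟨x, hxR⟩, ← hxe]
  rfl

omit [Fact p.Prime] in
theorem normalizer_le_normalizer_JJ' {R : Subgroup Ω} {g : Ω} (hg : g ∈ Subgroup.normalizer (R : Set Ω)) :
    g ∈ Subgroup.normalizer ((JJ 0 R : Subgroup Ω) : Set Ω) := by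
  have h1 : ∀ t ∈ R, g * t * g⁻¹ ∈ R := fun t ht => (Subgroup.mem_normalizer_iff.1 hg t).1 ht
  have h2 : ∀ t ∈ R, g⁻¹ * t * g ∈ R := fun t ht => by
    have := (Subgroup.mem_normalizer_iff.1 (inv_mem hg) t).1 ht
    simpa using this
  refine Subgroup.mem_normalizer_iff.2 fun y => ⟨fun hy => conj_mem_JJ' h1 h2 hy, fun hy => ?_⟩
  have := conj_mem_JJ' (s := g⁻¹) (fun t ht => by simpa using h2 t ht) (fun t ht => by simpa using h1 t ht) hy
  simpa [mul_assoc] using this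

set_option maxHeartbeats 2000000 in
/-- **The constrained case.** -/
theorem constrained_case [Finite S] (hS : IsPGroup p S) (hFc : F.IsConstrained p) (hyp : Hyp p E₀ V₀ F)
    {P : Subgroup Ω} {φ : P →* Ω} (hφ : φ ∈ F.Hom P) : φ ∈ E₀.Hom P := by
  obtain ⟨L, _, ι, hfin, hreal, ⟨T, hT⟩, hcen⟩ := Cfsg.Agent.Lib.Fusion.ModelF.exists_model hS hFc
  haveI := hfin
  have hQT : Cfsg.pCore p L ≤ T := Cfsg.Agent.Lib.Basic.PCore.pCore_le_sylow T
  have hZQ : (T : Subgroup L) ⊓ Subgroup.centralizer ((T : Subgroup L) : Set L) ≤ Cfsg.pCore p L :=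
    fun z hz => hcen (Subgroup.centralizer_le hQT hz.2)
  let Good : L → Subgroup L → Prop := fun g P' =>
    ∀ (P : Subgroup Ω) (hP : P ≤ S) (φ : P →* Ω) (hv : ∀ x : P, φ x ∈ S), P' = (P.subgroupOf S).map ι →
      (∀ x : P, ι ⟨φ x, hv x⟩ = g * ι ⟨x, hP x.2⟩ * g⁻¹) → φ ∈ E₀.Hom P
  have hiota : ∀ (a b : S), ι a = ι b → (a : Ω) = b := fun a b h => congrArg Subtype.val (hreal.1 h)
  have hcomp : ∀ (g₁ g₂ : L) (P' : Subgroup L), P' ≤ T → (∀ x ∈ P', g₁ * x * g₁⁻¹ ∈ (T : Subgroup L)) →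
      (∀ x ∈ P', g₂ * (g₁ * x * g₁⁻¹) * g₂⁻¹ ∈ (T : Subgroup L)) → Good g₁ P' →
        Good g₂ (P'.map (MulAut.conj g₁).toMonoidHom) → Good (g₂ * g₁) P' := by
    intro g₁ g₂ P' hP'T h₁ h₂ G₁ G₂ P hP φ hv hP'e hconj
    subst hP'e
    have hv₁ : ∀ r : P, g₁ * ι ⟨r, hP r.2⟩ * g₁⁻¹ ∈ ι.range := fun r => by
      rw [← hT]
      exact h₁ _ ⟨⟨r, hP r.2⟩, r.2, rfl⟩
    obtain ⟨ψ₁, hψ₁, hψ₁e⟩ := exists_hom_of_conj hreal hP g₁ hv₁
    have hψ₁v : ∀ x : P, ψ₁ x ∈ S := map_mem_S hψ₁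
    have hψ₁e' : ∀ x : P, ι ⟨ψ₁ x, hψ₁v x⟩ = g₁ * ι ⟨x, hP x.2⟩ * g₁⁻¹ := fun x => (hψ₁e x).2
    have hE₁ : ψ₁ ∈ E₀.Hom P := G₁ P hP ψ₁ hψ₁v rfl hψ₁e'
    have hP₁ : ψ₁.range ≤ S := by
      rintro _ ⟨x, rfl⟩
      exact hψ₁v x
    have hv₂ : ∀ r : ψ₁.range, g₂ * ι ⟨r, hP₁ r.2⟩ * g₂⁻¹ ∈ ι.range := by
      rintro ⟨_, x, rfl⟩
      rw [← hT]
      have h3 := h₂ _ ⟨⟨x, hP x.2⟩, x.2, rfl⟩
      have e : (⟨ψ₁ x, hP₁ ⟨x, rfl⟩⟩ : S) = ⟨ψ₁ x, hψ₁v x⟩ := rfl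
      show g₂ * ι ⟨ψ₁ x, hP₁ ⟨x, rfl⟩⟩ * g₂⁻¹ ∈ _
      rw [e, hψ₁e']
      exact h3
    obtain ⟨ψ₂, hψ₂, hψ₂e⟩ := exists_hom_of_conj hreal hP₁ g₂ hv₂
    have hψ₂v : ∀ x : ψ₁.range, ψ₂ x ∈ S := map_mem_S hψ₂
    have hmap : ((P.subgroupOf S).map ι).map (MulAut.conj g₁).toMonoidHom = (ψ₁.range.subgroupOf S).map ι := by
      ext y
      constructor
      · rintro ⟨_, ⟨⟨x, hxS⟩, hx, rfl⟩, rfl⟩
        refine ⟨⟨ψ₁ ⟨x, hx⟩, hψ₁v _⟩, ⟨⟨x, hx⟩, rfl⟩, ?_⟩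
        exact hψ₁e' ⟨x, hx⟩
      · rintro ⟨⟨_, hs⟩, ⟨x, rfl⟩, rfl⟩
        refine ⟨ι ⟨x, hP x.2⟩, ⟨⟨x, hP x.2⟩, x.2, rfl⟩, ?_⟩
        exact (hψ₁e' x).symm
    have hE₂ : ψ₂ ∈ E₀.Hom ψ₁.range := G₂ _ hP₁ ψ₂ hψ₂v hmap fun x => (hψ₂e x).2
    refine comp_mem' hE₁ hE₂ (fun x => ⟨x, rfl⟩) fun x => ?_
    refine hiota ⟨φ x, hv x⟩ ⟨ψ₂ ⟨ψ₁ x, ⟨x, rfl⟩⟩, hψ₂v _⟩ ?_
    rw [hconj x]
    have h5 := (hψ₂e ⟨ψ₁ x, ⟨x, rfl⟩⟩).2
    refine Eq.trans ?_ h5.symm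
    have e : (⟨ψ₁ x, hP₁ ⟨x, rfl⟩⟩ : S) = ⟨ψ₁ x, hψ₁v x⟩ := rfl
    show _ = g₂ * ι ⟨ψ₁ x, hP₁ ⟨x, rfl⟩⟩ * g₂⁻¹
    rw [e, hψ₁e']
    group
  have hVS : V₀ ≤ S := hyp.V_le.trans inf_le_left
  have hcenι : ∀ w ∈ centralizerIn S S, ∀ hw : w ∈ S,
      ι ⟨w, hw⟩ ∈ (T : Subgroup L) ⊓ Subgroup.centralizer ((T : Subgroup L) : Set L) := by
    intro w hwc hw
    refine ⟨by rw [hT]; exact ⟨_, rfl⟩, Subgroup.mem_centralizer_iff.2 fun u hu => ?_⟩
    rw [hT] at hu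
    obtain ⟨s, rfl⟩ := hu
    rw [← map_mul, ← map_mul]
    congr 1
    apply Subtype.ext
    exact Subgroup.mem_centralizer_iff.1 hwc.2 s s.2
  have h1 : ∀ (g : L) (P' : Subgroup L),
      g ∈ Subgroup.centralizer ((agemo p ((T : Subgroup L) ⊓ Subgroup.centralizer ((T : Subgroup L) : Set L)) : Subgroup L) : Set L) →
      P' ≤ T → (∀ x ∈ P', g * x * g⁻¹ ∈ (T : Subgroup L)) → Good g P' := by
    intro g P' hg hP'T hgP P hP φ hv he hconj
    subst he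
    have hgV : ∀ x : V₀, g * ι ⟨x, hVS x.2⟩ * g⁻¹ = ι ⟨x, hVS x.2⟩ := by
      rintro ⟨v, hv₀⟩
      obtain ⟨w, hw, rfl⟩ := hyp.powers v hv₀
      have hwS : w ∈ S := hw.1
      have e : (⟨w ^ p, hVS hv₀⟩ : S) = (⟨w, hwS⟩ : S) ^ p := rfl
      show g * ι ⟨w ^ p, hVS hv₀⟩ * g⁻¹ = ι ⟨w ^ p, hVS hv₀⟩
      rw [e, map_pow]
      have hm : ι ⟨w, hwS⟩ ^ p ∈ agemo p ((T : Subgroup L) ⊓ Subgroup.centralizer ((T : Subgroup L) : Set L)) :=
        pow_mem_agemo (hcenι w hw hwS)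
      have h3 := Subgroup.mem_centralizer_iff.1 hg _ hm
      rw [← h3]
      group
    have hK : P ⊔ V₀ ≤ S := sup_le hP hVS
    have hall : ∀ r : ↥(P ⊔ V₀), g * ι ⟨r, hK r.2⟩ * g⁻¹ ∈ ι.range :=
      Cfsg.Agent.Lib.Fusion.Embed.conj_mem_range_sup ι hP hVS g (fun x => by
        rw [← hT]
        exact hgP _ ⟨⟨x, hP x.2⟩, x.2, rfl⟩) (fun x => by
        rw [hgV x]
        exact ⟨_, rfl⟩) hK
    obtain ⟨ψ, hψ, hψe⟩ := exists_hom_of_conj hreal hK g hall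
    have hPC : ∀ {y : Ω}, y ∈ S → y ∈ centralizerIn S V₀ := fun {y} hy =>
      ⟨hy, Subgroup.mem_centralizer_iff.2 fun v hv₀ => (Subgroup.mem_centralizer_iff.1 (hyp.V_le hv₀).2 y hy).symm⟩
    refine hyp.cen ⟨(hreal.2 P hP φ hv).2 ⟨g, hconj⟩, fun y hy => hPC (hP hy), fun x => hPC (hv x), ψ, hψ, ?_, ?_⟩
    · intro x
      obtain ⟨hs, hse⟩ := hψe (Subgroup.inclusion le_sup_left x)
      refine hiota ⟨_, hs⟩ ⟨φ x, hv x⟩ ?_
      rw [hse, hconj x]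
      rfl
    · intro x
      obtain ⟨hs, hse⟩ := hψe (Subgroup.inclusion le_sup_right x)
      refine hiota ⟨_, hs⟩ ⟨x, hVS x.2⟩ ?_
      rw [hse]
      exact hgV x
  have h2 : ∀ (g : L) (P' : Subgroup L), g ∈ Subgroup.normalizer ((JJ 0 (T : Subgroup L) : Subgroup L) : Set L) →
      P' ≤ T → (∀ x ∈ P', g * x * g⁻¹ ∈ (T : Subgroup L)) → Good g P' := by
    intro g P' hg hP'T hgP P hP φ hv he hconj
    subst he
    have hJS : JJ 0 S ≤ S := JJ_le 0 S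
    have hJι : ∀ s : S, ι s ∈ JJ 0 (T : Subgroup L) ↔ (s : Ω) ∈ JJ 0 S := by
      intro s
      rw [hT]
      exact mem_JJ_range_iff ι hreal.1 s
    have hK : P ⊔ JJ 0 S ≤ S := sup_le hP hJS
    have hall : ∀ r : ↥(P ⊔ JJ 0 S), g * ι ⟨r, hK r.2⟩ * g⁻¹ ∈ ι.range :=
      Cfsg.Agent.Lib.Fusion.Embed.conj_mem_range_sup ι hP hJS g (fun x => by
        rw [← hT]
        exact hgP _ ⟨⟨x, hP x.2⟩, x.2, rfl⟩) (fun x => by
        rw [← hT]
        exact JJ_le 0 _ ((Subgroup.mem_normalizer_iff.1 hg _).1 ((hJι ⟨x, hJS x.2⟩).2 x.2))) hK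
    obtain ⟨ψ, hψ, hψe⟩ := exists_hom_of_conj hreal hK g hall
    have hNS : normalizerIn S (JJ 0 S) = S := normalizerIn_JJ S
    refine hyp.nor ⟨(hreal.2 P hP φ hv).2 ⟨g, hconj⟩, hNS.symm ▸ hP, fun x => hNS.symm ▸ hv x, ψ, hψ, ?_, ?_⟩
    · intro x
      obtain ⟨hs, hse⟩ := hψe (Subgroup.inclusion le_sup_left x)
      refine hiota ⟨_, hs⟩ ⟨φ x, hv x⟩ ?_
      rw [hse, hconj x]
      rfl
    · ext y
      rw [mem_map_subgroupOf]
      constructor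
      · rintro ⟨x, hx, rfl⟩
        obtain ⟨hs, hse⟩ := hψe x
        have h3 : ι ⟨ψ x, hs⟩ ∈ JJ 0 (T : Subgroup L) := by
          rw [hse]
          exact (Subgroup.mem_normalizer_iff.1 hg _).1 ((hJι ⟨x, hK x.2⟩).2 hx)
        exact (hJι ⟨ψ x, hs⟩).1 h3
      · intro hy
        have hyS : y ∈ S := hJS hy
        have h3 : ι ⟨y, hyS⟩ ∈ JJ 0 (T : Subgroup L) := (hJι ⟨y, hyS⟩).2 hy
        have h4 : g⁻¹ * ι ⟨y, hyS⟩ * g ∈ JJ 0 (T : Subgroup L) := by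
          have := (Subgroup.mem_normalizer_iff.1 (inv_mem hg) _).1 h3
          simpa using this
        have h5 : g⁻¹ * ι ⟨y, hyS⟩ * g ∈ ι.range := by
          rw [← hT]
          exact JJ_le 0 _ h4
        obtain ⟨s, hs⟩ := h5
        have hsJ : (s : Ω) ∈ JJ 0 S := (hJι s).1 (hs ▸ h4)
        refine ⟨⟨s, (le_sup_right : JJ 0 S ≤ P ⊔ JJ 0 S) hsJ⟩, hsJ, ?_⟩
        obtain ⟨hs2, hse⟩ := hψe ⟨s, (le_sup_right : JJ 0 S ≤ P ⊔ JJ 0 S) hsJ⟩
        refine hiota ⟨_, hs2⟩ ⟨y, hyS⟩ ?_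
        rw [hse]
        have e : (⟨s, hK (le_sup_right (a := P) hsJ)⟩ : S) = s := rfl
        show g * ι ⟨s, hK (le_sup_right (a := P) hsJ)⟩ * g⁻¹ = _
        rw [e, hs]
        group
  obtain ⟨hP, hv⟩ := F.le_of_mem hφ
  obtain ⟨g, hg⟩ := (hreal.2 P hP φ hv).1 hφ
  refine gen_local T hQT hZQ Good hcomp h1 h2 ⊤ le_top ?_ g (Subgroup.mem_top g) ((P.subgroupOf S).map ι) ?_ ?_ P hP φ hv rfl hg
  · rw [Subgroup.normalizer_eq_top_iff.2 (inferInstance : (Cfsg.pCore p L).Normal)]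
  · rintro _ ⟨x, hx, rfl⟩
    rw [hT]
    exact ⟨x, rfl⟩
  · rintro _ ⟨x, hx, rfl⟩
    have h3 := hg ⟨x, hx⟩
    rw [← h3, hT]
    exact ⟨_, rfl⟩

/-- **(A1)**: given the claim for subgroups with big normalizers, all maps with big source are in `E₀`. -/
theorem mem_of_card_le [Finite S] (hS : IsPGroup p S) (hF : F.IsSaturated p)
    (hnc : ¬ centralizerIn S F.core ≤ F.core) (hyp : Hyp p E₀ V₀ F) (m : ℕ)
    (IHc : ∀ D' : Subgroup Ω, F.core < D' → D' ≤ S → m < Nat.card (normalizerIn S D') →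
      ∀ (P : Subgroup Ω) (φ : P →* Ω), φ ∈ F.normalizerHom D' P → φ ∈ E₀.Hom P)
    {P : Subgroup Ω} {φ : P →* Ω} (hφ : φ ∈ F.Hom P) : m ≤ Nat.card P → φ ∈ E₀.Hom P := by
  refine Cfsg.Agent.Lib.Fusion.FNInduction.fn_induction hS hF (fun P φ => m ≤ Nat.card P → φ ∈ E₀.Hom P)
    ?_ ?_ ?_ ?_ hφ
  · intro P R φ hφ hPi h hm
    haveI : Finite P := finite_of_le (source_le hφ)
    exact res_mem (hPi (hm.trans (Subgroup.card_le_of_le h))) h
  · intro P Q φ ψ hφ hψ hPi₁ hPi₂ h hm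
    haveI : Finite Q := finite_of_le (source_le hψ)
    have hc : Nat.card P ≤ Nat.card Q :=
      Nat.card_le_card_of_injective (φ.codRestrict Q h) fun a b hab =>
        F.injective_of_mem hφ (congrArg Subtype.val hab)
    exact E₀.comp_mem (hPi₁ hm) (hPi₂ (hm.trans hc)) h
  · intro P Q φ ψ hφ hψ hr hi hPi hm
    haveI : Finite Q := finite_of_le (source_le hψ)
    have hc : Nat.card P = Nat.card Q := by
      rw [← hr]
      exact (Nat.card_congr (MonoidHom.ofInjective (F.injective_of_mem hφ)).toEquiv)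
    obtain ⟨θ, hθ, -, hθ1, -⟩ := exists_inv (hPi (hc ▸ hm)) hr
    refine mem_of_eq_res hθ le_rfl fun y => ?_
    obtain ⟨x, hx⟩ : (y : Ω) ∈ φ.range := hr ▸ y.2
    have hx' : φ x ∈ Q := hx ▸ y.2
    have e : y = ⟨φ x, hx'⟩ := Subtype.ext hx.symm
    rw [e]
    have e2 : Subgroup.inclusion (le_refl Q) ⟨φ x, hx'⟩ = ⟨φ x, hx'⟩ := rfl
    rw [e2, hi x hx', hθ1 x hx']
  · intro P φ hFN hφ hr IH hm
    have hPS : P ≤ S := source_le hφ
    haveI : Finite P := finite_of_le hPS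
    have hnorm := isNormal_core F
    by_cases hQP : F.core ≤ P
    swap
    · obtain ⟨ψ, hψ, hag, -⟩ := hnorm.2 P φ hφ
      have hK : P ⊔ F.core ≤ S := source_le hψ
      haveI : Finite ↥(P ⊔ F.core) := finite_of_le hK
      have hlt : P < P ⊔ F.core := lt_of_le_of_ne le_sup_left fun he => hQP (he ▸ le_sup_right)
      have hc := card_lt_of_lt hlt
      exact mem_of_eq_res (IH _ ψ hc hψ (by omega)) le_sup_left fun x => (hag x).symm
    by_cases hPQ : P = F.core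
    · have hrec := fullyNormalized_receptive hS hF hFN
      obtain ⟨ψ, hψ, hag⟩ := hrec.2 P φ hφ hr
      have hv : ∀ x : P, φ x ∈ S := map_mem_S hφ
      have hle : P ≤ extender S P φ := le_extender hPS hv
      have hK : extender S P φ ≤ S := source_le hψ
      haveI : Finite ↥(extender S P φ) := finite_of_le hK
      have hlt : P < extender S P φ := by
        refine lt_of_le_of_ne hle fun he => hnc ?_
        rw [← hPQ]
        exact centralizerIn_le_extender.trans he.ge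
      have hc := card_lt_of_lt hlt
      exact mem_of_eq_res (IH _ ψ hc hψ (by omega)) hle fun x => (hag x x.2 (hle x.2)).symm
    by_cases hPS' : P = S
    · subst hPS'
      exact hyp.nor (normalizerHom_JJ_of_aut hφ hr)
    · have hlt : P < S := lt_of_le_of_ne hPS hPS'
      have hN := lt_normalizerIn hS hlt
      haveI : Finite ↥(normalizerIn S P) := finite_of_le normalizerIn_le
      have hc := card_lt_of_lt hN
      exact IHc P (lt_of_le_of_ne hQP (Ne.symm hPQ)) hPS (by omega) P φ (normalizerHom_self hφ hr)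

set_option maxHeartbeats 2000000 in
/-- **(A2)** Transport of the claim along a map. -/
theorem claim_of_transport [Finite S] {D D' R : Subgroup Ω} (hDR : D ≤ R) (hR : R = normalizerIn S D) {ρ : R →* Ω}
    (hρF : ρ ∈ F.Hom R) (hρE : ρ ∈ E₀.Hom R) (hρv : ∀ x, ρ x ∈ normalizerIn S D')
    (hρD : (D.subgroupOf R).map ρ = D')
    (IH : ∀ (P : Subgroup Ω) (φ : P →* Ω), φ ∈ F.normalizerHom D' P → φ ∈ E₀.Hom P)
    {P : Subgroup Ω} {φ : P →* Ω} (hφ : φ ∈ F.normalizerHom D P) : φ ∈ E₀.Hom P := by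
  obtain ⟨hφF, hPN, hv, ψ, hψ, hag, himg⟩ := hφ
  subst hR
  have hK : P ⊔ D ≤ normalizerIn S D := sup_le hPN hDR
  have hρinj := F.injective_of_mem hρF
  -- `ψ` has values in `R`
  have hψv : ∀ x : ↥(P ⊔ D), ψ x ∈ normalizerIn S D := by
    refine map_mem_sup_of_ext ψ (fun y => ?_) (fun y => ?_)
    · rw [hag]
      exact hv y
    · exact hDR (himg.le ⟨Subgroup.inclusion le_sup_right y, y.2, rfl⟩)
  let ρK : ↥(P ⊔ D) →* Ω := ρ.comp (Subgroup.inclusion hK)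
  have hρK : ρK ∈ F.Hom _ := res_mem hρF hK
  obtain ⟨θ, hθ, hθr, hθ1, hθ2⟩ := exists_inv hρK rfl
  have hθv : ∀ y, θ y ∈ P ⊔ D := fun y => hθr.le ⟨y, rfl⟩
  -- the transported map on the whole image
  let ψ₁ : ρK.range →* Ω := ρ.comp ((ψ.codRestrict _ hψv).comp (θ.codRestrict _ hθv))
  have hψ₁ : ψ₁ ∈ F.Hom ρK.range := by
    have h1 : ψ.comp (θ.codRestrict _ hθv) ∈ F.Hom ρK.range := F.comp_mem hθ hψ hθv
    have h2 := F.comp_mem h1 hρF (fun x => hψv _)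
    exact h2
  let P₁ : Subgroup Ω := (ρ.comp (Subgroup.inclusion hPN)).range
  have hP₁le : P₁ ≤ ρK.range := by
    rintro _ ⟨x, rfl⟩
    exact ⟨Subgroup.inclusion le_sup_left x, rfl⟩
  have hD'le : D' ≤ ρK.range := by
    rw [← hρD]
    rintro _ ⟨x, hx, rfl⟩
    exact ⟨⟨x, (le_sup_right : D ≤ P ⊔ D) hx⟩, rfl⟩
  have hsup : ρK.range = P₁ ⊔ D' := by
    refine le_antisymm ?_ (sup_le hP₁le hD'le)
    rintro _ ⟨x, rfl⟩
    refine map_mem_sup_of_ext ρK (fun y => ?_) (fun y => ?_) x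
    · exact (le_sup_left : P₁ ≤ P₁ ⊔ D') ⟨y, rfl⟩
    · refine (le_sup_right : D' ≤ P₁ ⊔ D') ?_
      rw [← hρD]
      exact ⟨Subgroup.inclusion hDR y, y.2, rfl⟩
  -- values of `θ` on `P₁`
  have hθP : ∀ y : P, θ ⟨ρK (Subgroup.inclusion le_sup_left y), ⟨_, rfl⟩⟩ = y := fun y =>
    hθ1 (Subgroup.inclusion le_sup_left y) ⟨_, rfl⟩
  let φ₁ : P₁ →* Ω := ψ₁.comp (Subgroup.inclusion hP₁le)
  have hφ₁F : φ₁ ∈ F.Hom P₁ := res_mem hψ₁ hP₁le
  have hφ₁E : φ₁ ∈ E₀.Hom P₁ := by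
    refine IH P₁ φ₁ ⟨hφ₁F, ?_, fun x => hρv _, ?_⟩
    · rintro _ ⟨x, rfl⟩
      exact hρv _
    · obtain ⟨ψ', hψ', hψ'e⟩ := exists_hom_of_eq F hsup ψ₁ hψ₁
      refine ⟨ψ', hψ', fun x => ?_, ?_⟩
      · exact hψ'e _ (hP₁le x.2) _
      · ext y
        rw [mem_map_subgroupOf]
        constructor
        · rintro ⟨x, hx, rfl⟩
          have hx2 : (x : Ω) ∈ ρK.range := hsup.ge x.2
          rw [hψ'e _ hx2 x.2]
          -- `x = ρ d`
          have hx' : (x : Ω) ∈ (D.subgroupOf (normalizerIn S D)).map ρ := by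
            rw [hρD]
            exact hx
          obtain ⟨d, hd, hde⟩ := hx'
          have hdK : (d : Ω) ∈ P ⊔ D := (le_sup_right : D ≤ P ⊔ D) hd
          have e : (⟨(x : Ω), hx2⟩ : ρK.range) = ⟨ρK ⟨d, hdK⟩, ⟨_, rfl⟩⟩ := Subtype.ext hde.symm
          rw [e]
          have e2 := hθ1 ⟨d, hdK⟩ ⟨_, rfl⟩
          show ρ ⟨ψ (θ.codRestrict _ hθv ⟨ρK ⟨d, hdK⟩, ⟨_, rfl⟩⟩), hψv _⟩ ∈ D'
          have e3 : θ.codRestrict _ hθv ⟨ρK ⟨d, hdK⟩, ⟨_, rfl⟩⟩ = ⟨d, hdK⟩ := Subtype.ext e2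
          rw [e3, ← hρD]
          refine ⟨⟨ψ ⟨d, hdK⟩, hψv _⟩, ?_, rfl⟩
          exact himg.le ⟨⟨d, hdK⟩, hd, rfl⟩
        · intro hy
          rw [← hρD] at hy
          obtain ⟨d, hd, rfl⟩ := hy
          have hd' : (d : Ω) ∈ D := hd
          obtain ⟨x, hx, hxe⟩ := himg.ge hd'
          have hxD : (x : Ω) ∈ D := hx
          have hm : ρK x ∈ D' := by
            rw [← hρD]
            exact ⟨Subgroup.inclusion hK x, hx, rfl⟩
          have hm2 : ρK x ∈ ρK.range := ⟨x, rfl⟩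
          refine ⟨⟨ρK x, (le_sup_right : D' ≤ P₁ ⊔ D') hm⟩, hm, ?_⟩
          rw [hψ'e _ hm2 _]
          have e2 := hθ1 x hm2
          show ρ ⟨ψ (θ.codRestrict _ hθv ⟨ρK x, hm2⟩), hψv _⟩ = _
          have e3 : θ.codRestrict _ hθv ⟨ρK x, hm2⟩ = x := Subtype.ext e2
          rw [e3]
          congr 1
          exact Subtype.ext hxe
  -- conclude
  obtain ⟨σ, hσ, -, hσ1, -⟩ := exists_inv hρE rfl
  let ρP : P →* Ω := ρ.comp (Subgroup.inclusion hPN)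
  have hρP : ρP ∈ E₀.Hom P := res_mem hρE hPN
  have hφ₂ : φ₁.comp (ρP.rangeRestrict) ∈ E₀.Hom P := by
    refine comp_mem' hρP hφ₁E (fun x => ⟨x, rfl⟩) fun x => rfl
  have hv₂ : ∀ x : P, φ₁.comp (ρP.rangeRestrict) x ∈ ρ.range := by
    intro x
    show ρ _ ∈ _
    exact ⟨_, rfl⟩
  refine comp_mem' hφ₂ hσ hv₂ fun x => ?_
  -- `φ₁ (ρ x) = ρ (φ x)`
  have e4 : φ₁.comp (ρP.rangeRestrict) x = ρ ⟨φ x, hv x⟩ := by
    show ρ ⟨ψ (θ.codRestrict _ hθv (Subgroup.inclusion hP₁le (ρP.rangeRestrict x))), hψv _⟩ = _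
    congr 1
    apply Subtype.ext
    show ψ (θ.codRestrict _ hθv (Subgroup.inclusion hP₁le (ρP.rangeRestrict x))) = φ x
    rw [← hag x]
    congr 1
    apply Subtype.ext
    exact hθP x
  have e5 : (⟨φ₁.comp (ρP.rangeRestrict) x, hv₂ x⟩ : ρ.range) = ⟨ρ ⟨φ x, hv x⟩, ⟨_, rfl⟩⟩ := Subtype.ext e4
  rw [e5, hσ1 ⟨φ x, hv x⟩ ⟨_, rfl⟩]

set_option maxHeartbeats 2000000 in
/-- **(A3)** The claim for fully normalized subgroups. -/
theorem claim_of_fn [Finite S] (hS : IsPGroup p S) (hF : F.IsSaturated p) (hnc : ¬ centralizerIn S F.core ≤ F.core)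
    (hyp : Hyp p E₀ V₀ F)
    (IH₁ : ∀ (S₁ : Subgroup Ω) (F₁ : FusionSystem S₁), S₁ ≤ S → F₁.IsSaturated p → (∀ P, F₁.Hom P ⊆ F.Hom P) →
      (∃ P, ∃ φ ∈ F.Hom P, φ ∉ F₁.Hom P) → Hyp p E₀ V₀ F₁ →
      ∀ (P : Subgroup Ω) (φ : P →* Ω), φ ∈ F₁.Hom P → φ ∈ E₀.Hom P)
    {D : Subgroup Ω} (hQD : F.core < D) (hDS : D ≤ S) (hFN : F.IsFullyNormalized D)
    (IHc : ∀ D' : Subgroup Ω, F.core < D' → D' ≤ S → Nat.card (normalizerIn S D) < Nat.card (normalizerIn S D') →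
      ∀ (P : Subgroup Ω) (φ : P →* Ω), φ ∈ F.normalizerHom D' P → φ ∈ E₀.Hom P)
    {P : Subgroup Ω} {φ : P →* Ω} (hφ : φ ∈ F.normalizerHom D P) : φ ∈ E₀.Hom P := by
  have hE := normalizerSystem_isNormalizerSystem F D hDS
  have hsat := Cfsg.Agent.Lib.Fusion.KNormalizer.isSaturated_normalizerSystem hS hF hFN hE
  have hsub : ∀ P, (normalizerSystem F D hDS).Hom P ⊆ F.Hom P := fun P φ hφ => hφ.1
  have hnn : ¬ F.IsNormal D := fun h => absurd (le_sSup h : D ≤ F.core) (not_le_of_gt hQD)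
  have hstrict := Cfsg.Agent.Lib.Fusion.CenterControl.exists_not_mem_normalizerSystem hDS hE hnn
  have hnorm := isNormal_core F
  refine IH₁ _ (normalizerSystem F D hDS) normalizerIn_le hsat hsub hstrict ⟨?_, ?_, ?_⟩ P φ hφ
  · intro v hv
    obtain ⟨w, hw, hwv⟩ := hyp.powers v hv
    exact ⟨w, Cfsg.Agent.Lib.Fusion.CenterControl.mem_centralizerIn_of_le normalizerIn_le hw
      (Cfsg.Agent.Lib.Fusion.CenterControl.center_le_normalizerIn hDS hw), hwv⟩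
  · intro P φ hφ
    exact hyp.cen (centralizerHom_mono normalizerIn_le hsub hφ)
  · intro P φ hφ
    have hφF := Cfsg.Agent.Lib.Fusion.CenterControl.normalizerHom_mono normalizerIn_le hsub hφ
    by_cases hS₁ : normalizerIn S D = S
    · rw [hS₁] at hφF
      exact hyp.nor hφF
    have hlt : normalizerIn S D < S := lt_of_le_of_ne normalizerIn_le hS₁
    haveI : Finite ↥(normalizerIn S D) := finite_of_le normalizerIn_le
    set S₁ := normalizerIn S D with hS₁def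
    have hQS : F.core ≤ S := hnorm.1
    have hSQ : S ≤ Subgroup.normalizer (F.core : Set Ω) :=
      StronglyClosed.le_normalizer (IsNormal.stronglyClosed hnorm)
    have hJQ : ¬ JJ 0 S₁ ≤ F.core := by
      intro hle
      obtain ⟨z, hzW, hzQ, hzs⟩ := exists_central_mod_of hS hSQ hQS hnc
      have hzD : z ∈ S₁ := by
        refine ⟨hzW.1, ?_⟩
        have key : ∀ u : Ω, u ∈ S → ⁅z, u⁆ ∈ F.core → ∀ d ∈ D, d = u → z * d * z⁻¹ ∈ D := by
          intro u hu hc d hd hdu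
          subst hdu
          have e : z * d * z⁻¹ = ⁅z, d⁆ * d := by
            simp only [commutatorElement_def]
            group
          rw [e]
          exact mul_mem (hQD.le hc) hd
        have hzS : z ∈ S := hzW.1
        refine Subgroup.mem_normalizer_iff.2 fun d => ⟨fun hd => key d (hDS hd) (hzs d (hDS hd)) d hd rfl, fun hd => ?_⟩
        have hdS : d ∈ S := by
          have h1 : z * d * z⁻¹ ∈ S := hDS hd
          have e : d = z⁻¹ * (z * d * z⁻¹) * z := by group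
          rw [e]
          exact mul_mem (mul_mem (inv_mem hzS) h1) hzS
        have h2 := key (z * d * z⁻¹) (hDS hd) (hzs _ (hDS hd)) _ hd rfl
        have h3 := hzs d hdS
        have e : d = ⁅z, d⁆⁻¹ * (z * d * z⁻¹) := by
          simp only [commutatorElement_def]
          group
        rw [e]
        exact mul_mem (inv_mem (hQD.le h3)) hd
      have hzJ : z ∈ JJ 0 S₁ := mem_JJ_of_comm hzD fun u hu => by
        exact (Subgroup.mem_centralizer_iff.1 hzW.2 u (hle hu)).symm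
      exact hzQ (hle hzJ)
    set J₁ := JJ 0 S₁ with hJ₁
    have hJ₁S : J₁ ≤ S := (JJ_le 0 S₁).trans normalizerIn_le
    have hX : F.core < J₁ ⊔ F.core := lt_of_le_of_ne le_sup_right fun he => hJQ (he.symm ▸ le_sup_left)
    have hXS : J₁ ⊔ F.core ≤ S := sup_le hJ₁S hQS
    -- the normalizer of `X`
    have hN₁ : S₁ < normalizerIn S S₁ := lt_normalizerIn hS hlt
    have hN₂ : normalizerIn S S₁ ≤ normalizerIn S (J₁ ⊔ F.core) := fun y hy =>
      ⟨hy.1, mem_normalizer_sup' (normalizer_le_normalizer_JJ' hy.2) (hSQ hy.1)⟩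
    haveI : Finite ↥(normalizerIn S S₁) := finite_of_le normalizerIn_le
    haveI : Finite ↥(normalizerIn S (J₁ ⊔ F.core)) := finite_of_le normalizerIn_le
    have hc : Nat.card S₁ < Nat.card ↥(normalizerIn S (J₁ ⊔ F.core)) :=
      (card_lt_of_lt hN₁).trans_le (Subgroup.card_le_of_le hN₂)
    exact IHc _ hX hXS hc P φ (normalizerHom_sup hnorm hφF)

set_option maxHeartbeats 2000000 in
/-- **The generation theorem for saturated fusion systems.** -/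
theorem main {E₀ : FusionSystem S₀} {V₀ : Subgroup Ω} (S : Subgroup Ω) [Finite S] (F : FusionSystem S) (hS : IsPGroup p S)
    (hF : F.IsSaturated p) (hyp : Hyp p E₀ V₀ F) {P : Subgroup Ω} {φ : P →* Ω} (hφ : φ ∈ F.Hom P) : φ ∈ E₀.Hom P := by
  suffices H : ∀ (m : ℕ) (S : Subgroup Ω) [Finite S] (F : FusionSystem S),
      (Cfsg.Agent.Lib.Fusion.GlaubermanMain.mapsOf F).ncard = m → IsPGroup p S → F.IsSaturated p → Hyp p E₀ V₀ F →
      ∀ (P : Subgroup Ω) (φ : P →* Ω), φ ∈ F.Hom P → φ ∈ E₀.Hom P from H _ S F rfl hS hF hyp P φ hφ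
  clear hφ φ P hyp hF hS F
  intro m
  induction m using Nat.strong_induction_on with
  | _ m ih =>
  intro S _ F hm hS hF hyp P φ hφ
  by_cases hcon : F.IsConstrained p
  · exact constrained_case hS hcon hyp hφ
  have hnorm := isNormal_core F
  have hnc : ¬ centralizerIn S F.core ≤ F.core := fun h => hcon ⟨hF, F.core, hnorm, isCentric_of_isNormal hnorm h⟩
  have IH₁ : ∀ (S₁ : Subgroup Ω) (F₁ : FusionSystem S₁), S₁ ≤ S → F₁.IsSaturated p → (∀ P, F₁.Hom P ⊆ F.Hom P) →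
      (∃ P, ∃ φ ∈ F.Hom P, φ ∉ F₁.Hom P) → Hyp p E₀ V₀ F₁ →
      ∀ (P : Subgroup Ω) (φ : P →* Ω), φ ∈ F₁.Hom P → φ ∈ E₀.Hom P := by
    intro S₁ F₁ hle hsat hsub hstrict hyp₁
    haveI : Finite S₁ := finite_of_le hle
    exact ih _ (hm ▸ Cfsg.Agent.Lib.Fusion.GlaubermanMain.ncard_mapsOf_lt hsub hstrict) S₁ F₁ rfl (hS.to_le hle) hsat hyp₁
  have claim : ∀ (k : ℕ) (D : Subgroup Ω), F.core < D → D ≤ S → Nat.card S - Nat.card (normalizerIn S D) = k →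
      ∀ (P : Subgroup Ω) (φ : P →* Ω), φ ∈ F.normalizerHom D P → φ ∈ E₀.Hom P := by
    intro k
    induction k using Nat.strong_induction_on with
    | _ k ihk =>
    intro D hQD hDS hk P φ hφ
    have IHc : ∀ D' : Subgroup Ω, F.core < D' → D' ≤ S → Nat.card (normalizerIn S D) < Nat.card (normalizerIn S D') →
        ∀ (P : Subgroup Ω) (φ : P →* Ω), φ ∈ F.normalizerHom D' P → φ ∈ E₀.Hom P := by
      intro D' h1 h2 h3
      have h4 := card_le_S (normalizerIn_le : normalizerIn S D' ≤ S)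
      exact ihk _ (by omega) D' h1 h2 rfl
    by_cases hFN : F.IsFullyNormalized D
    · exact claim_of_fn hS hF hnc hyp IH₁ hQD hDS hFN IHc hφ
    -- not fully normalized
    obtain ⟨D₁, hconj, hD₁⟩ := exists_fullyNormalized (F := F) hDS
    obtain ⟨ρ, hρ, hρv, hρD⟩ := exists_map_to_fullyNormalized hS hF hD₁ hconj
    have hρE : ρ ∈ E₀.Hom _ := by
      refine mem_of_card_le hS hF hnc hyp _ IHc hρ le_rfl
    have hDN : D ≤ normalizerIn S D := le_normalizerIn hDS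
    have hQD₁ : F.core < D₁ := by
      have hQle : F.core ≤ D₁ := by
        intro q hq
        have hqD : q ∈ D := hQD.le hq
        have hqim : ρ ⟨q, hDN hqD⟩ ∈ D₁ := by
          rw [← hρD]
          exact ⟨⟨q, hDN hqD⟩, hqD, rfl⟩
        -- use that `ρ` preserves the core
        obtain ⟨x, hx, hxe⟩ := exists_preimage_core hnorm hρ (hQD.le.trans hDN) hq
        rw [← hxe]
        rw [← hρD]
        exact ⟨x, hQD.le hx, rfl⟩
      have hcD : Nat.card D₁ = Nat.card D := (Basic.IsConj.card_eq hconj).symm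
      refine lt_of_le_of_ne hQle fun he => ?_
      haveI : Finite D := finite_of_le hDS
      have := card_lt_of_lt hQD
      rw [he] at this
      omega
    have hbig : Nat.card (normalizerIn S D) < Nat.card (normalizerIn S D₁) := by
      by_contra hcon2
      apply hFN
      refine ⟨hDS, fun D₂ hD₂ => ?_⟩
      have h1 := hD₁.2 D₂ (Basic.IsConj.trans (Basic.IsConj.symm hconj) hD₂)
      omega
    exact claim_of_transport hDN rfl hρ hρE hρv hρD (IHc D₁ hQD₁ hD₁.1 hbig) hφ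
  exact mem_of_card_le hS hF hnc hyp 0 (fun D' h1 h2 _ => claim _ D' h1 h2 rfl) hφ (Nat.zero_le _)

end constrained

end Cfsg.Agent.Lib.Fusion.GT.GenFusion
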